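import Cfsg.Agent.KnownA.Pres.Orbit

/-! Deriving the standard relations from five relations in characteristic two. -/

set_option autoImplicit false

namespace Cfsg.Agent.KnownA.Pres

open Polynomial

theorem exists_period (a : ℕ) (ha : 2 ≤ a) :
    ∃ N : ℕ, 0 < N ∧ (X ^ a + X + 1 : (ZMod 2)[X]) ∣ X ^ N - 1 := by
  set R : (ZMod 2)[X] := X ^ a + X + 1 with hR
  have hmon : R.Monic := by
    rw [hR, add_assoc]
    refine monic_X_pow_add (lt_of_le_of_lt (b := (1 : WithBot ℕ)) ?_ (by exact_mod_cast ha))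
    compute_degree
  have := hmon.finite_adjoinRoot
  have : Finite (AdjoinRoot R) := Module.finite_of_finite (ZMod 2)
  obtain ⟨b, rfl⟩ : ∃ b, a = b + 1 := ⟨a - 1, by omega⟩
  have hroot : IsUnit (AdjoinRoot.root R) := by
    have h0 := AdjoinRoot.mk_self (f := R)
    rw [hR, map_add, map_add, map_pow, map_one, ← hR, AdjoinRoot.mk_X] at h0
    refine IsUnit.of_mul_eq_one (-(AdjoinRoot.root R ^ b + 1)) ?_
    linear_combination -h0
  obtain ⟨v, hv⟩ := hroot
  refine ⟨orderOf v, orderOf_pos v, AdjoinRoot.mk_eq_mk.mp ?_⟩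
  rw [map_pow, map_one, AdjoinRoot.mk_X, ← hv, ← Units.val_pow_eq_pow_val, pow_orderOf_eq_one, Units.val_one]

variable {G : Type*} [Group G]

theorem char_two_derive (u w h : G) {a n m N : ℕ} (f : (ZMod 2)[X]) (hn : Odd n) (hnm : n ∣ m) (hm3 : 3 ≤ m)
    (hN : (X ^ a + X + 1 : (ZMod 2)[X]) ∣ X ^ N - 1) (hfn : f ∣ X ^ n - 1)
    (hcop : Nat.Coprime (m - 2) N) (hmodd : Odd m)
    (h1 : u ^ 2 = 1) (h2 : A h u a = A h u 0 * A h u 1) (h3 : w * w = word h u f)
    (h4 : w * h * w * h = h ^ m) (h5 : (u * w) ^ 3 = h ^ n) :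
    (∃ e : (ZMod 2)[X] → G, (∀ P Q, e (P + Q) = e P * e Q) ∧ e 1 = u ∧ (∀ P, h * e P * h⁻¹ = e (X * P)) ∧
      (∀ P R : (ZMod 2)[X], e P = 1 → e (R * P) = 1) ∧ e f = 1) ∧
    w * w = 1 ∧ h ^ n = 1 ∧ w * h * w⁻¹ = h⁻¹ ∧ (u * w) ^ 3 = 1 := by
  classical
  have hA2 : ∀ i : ℤ, A h u i * A h u i = 1 := fun i => by
    simp [A, ← mul_assoc, mul_assoc _ u u, ← pow_two, h1]
  have hcomm1 : Commute (A h u 0) (A h u 1) := by
    have e := hA2 a
    rw [h2] at e
    have e1 : A h u 0 * (A h u 0 * A h u 1 * (A h u 0 * A h u 1)) * A h u 1 = A h u 0 * A h u 1 := by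
      rw [e, mul_one]
    have e2 : A h u 0 * (A h u 0 * A h u 1 * (A h u 0 * A h u 1)) * A h u 1 =
        (A h u 0 * A h u 0) * (A h u 1 * A h u 0) * (A h u 1 * A h u 1) := by group
    rw [e2, hA2, hA2, one_mul, mul_one] at e1
    exact e1.symm
  have hmult := commute_multiples h u hcomm1 h2
  have hcN : ∀ i j : ℕ, Commute (A h u i) (A h u j) := by
    intro i j
    wlog hij : i ≤ j generalizing i j
    · exact (this j i (by omega)).symm
    obtain ⟨k, rfl⟩ := Nat.exists_eq_add_of_le hij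
    have := commute_shift h u (hmult k) i
    simpa [one_mul] using this
  have hS : IsMulCommutative (Subgroup.closure (Set.range fun i : ℕ => A h u i)) :=
    isMulCommutative_closure (by rintro _ ⟨i, rfl⟩ _ ⟨j, rfl⟩; exact hcN i j)
  obtain ⟨e, eadd, eone, eX, eword, emul⟩ :=
    exists_evalHom h u (p := 2) h1 (commute_all h u hS fun i => Subgroup.subset_closure ⟨i, rfl⟩)
  have ezero : e 0 = 1 := by
    have := eadd 0 0
    rw [add_zero] at this
    exact left_eq_mul.mp this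
  have ecomm : ∀ P Q, Commute (e P) (e Q) := fun P Q => by
    show e P * e Q = e Q * e P
    rw [← eadd, ← eadd, add_comm]
  have esq : ∀ P, e P * e P = 1 := fun P => by rw [← eadd, CharTwo.add_self_eq_zero, ezero]
  have hiter : ∀ (k : ℕ) P, h ^ k * e P * (h ^ k)⁻¹ = e (X ^ k * P) := by
    intro k P
    induction k with
    | zero => simp
    | succ k ih =>
      rw [pow_succ' X k, mul_assoc X, ← eX, ← ih, pow_succ']
      group
  have eXi : ∀ i : ℕ, e (X ^ i) = A h u i := fun i => by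
    have := hiter i 1
    rw [mul_one, eone] at this
    rw [← this, A, zpow_natCast]
  have eR : e (X ^ a + X + 1) = 1 := by
    have h10 : e X = A h u 1 := by simpa using eXi 1
    rw [eadd, eadd, eone, eXi, h2, h10, mul_assoc (A h u 0), hA2, mul_one]
    rw [← A_zero h u]
    exact (by simpa [A_zero] using hA2 0)
  have hper : ∀ P, e (X ^ N * P) = e P := fun P => by
    obtain ⟨r, hr⟩ := hN
    have := emul _ (r * P) eR
    rw [show X ^ N * P = r * P * (X ^ a + X + 1) + P by rw [mul_comm (r * P), ← mul_assoc, ← hr]; ring, eadd, this,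
      one_mul]
  set z := e f with hz
  have h3' : w * w = z := by rw [h3, hz, eword]
  have hwz : w * z * w⁻¹ = z := by rw [← h3']; group
  have hzi : z⁻¹ = z := inv_eq_of_mul_eq_one_right (esq f)
  have hφ : w * h * w⁻¹ = h ^ (m - 1) * z := by
    have e1 : w * h * w = h ^ (m - 1) := by
      rw [eq_comm, ← mul_left_inj h, ← pow_succ, show m - 1 + 1 = m by omega, h4]
    calc w * h * w⁻¹ = (w * h * w) * (w * w)⁻¹ := by group
      _ = _ := by rw [e1, h3', hzi]
  have hzP : ∀ P, z * e P * z⁻¹ = e P := fun P => by rw [(ecomm f P).eq, mul_inv_cancel_right]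
  have hφj : ∀ j : ℕ, w * e (X ^ j * f) * w⁻¹ = e (X ^ ((m - 1) * j) * f) := by
    intro j
    induction j with
    | zero => simpa using hwz
    | succ j ih =>
      calc w * e (X ^ (j + 1) * f) * w⁻¹ = (w * h * w⁻¹) * (w * e (X ^ j * f) * w⁻¹) * (w * h * w⁻¹)⁻¹ := by
            rw [pow_succ' X j, mul_assoc X, ← eX]; group
        _ = h ^ (m - 1) * (z * e (X ^ ((m - 1) * j) * f) * z⁻¹) * (h ^ (m - 1))⁻¹ := by rw [ih, hφ]; group
        _ = _ := by rw [hzP, hiter, ← mul_assoc, ← pow_add]; ring_nf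
  have hφ3 : w * (w * (w * e (X * f) * w⁻¹) * w⁻¹) * w⁻¹ = e (X ^ (m - 1) * f) := by
    have e2 : w * (w * e (X * f) * w⁻¹) * w⁻¹ = e (X * f) := by
      calc w * (w * e (X * f) * w⁻¹) * w⁻¹ = (w * w) * e (X * f) * (w * w)⁻¹ := by group
        _ = _ := by rw [h3', hzP]
    rw [e2]
    simpa using hφj 1
  have hconj : ∀ P Q, w * e P * w⁻¹ = e Q → (u * w) * e P * (u * w)⁻¹ = e Q := fun P Q hPQ => by
    calc (u * w) * e P * (u * w)⁻¹ = u * (w * e P * w⁻¹) * u⁻¹ := by group
      _ = e Q := by rw [hPQ, ← eone, (ecomm 1 Q).eq, mul_inv_cancel_right]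
  have hz0 : h ^ n * z * (h ^ n)⁻¹ = z := by
    have c1 := hconj f f hwz
    rw [← h5, pow_succ, pow_two]
    calc u * w * (u * w) * (u * w) * z * (u * w * (u * w) * (u * w))⁻¹
        = u * w * ((u * w) * ((u * w) * z * (u * w)⁻¹) * (u * w)⁻¹) * (u * w)⁻¹ := by group
      _ = z := by rw [c1, c1, c1]
  have hz1 : e (X ^ (m - 1) * f) = e (X * f) := by
    have c1 : (u * w) * e (X * f) * (u * w)⁻¹ = e (X ^ (m - 1) * f) :=
      hconj _ _ (by simpa using hφj 1)
    have c2 : (u * w) * e (X ^ (m - 1) * f) * (u * w)⁻¹ = e (X ^ ((m - 1) * (m - 1)) * f) :=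
      hconj _ _ (hφj _)
    have c3 : (u * w) * e (X ^ ((m - 1) * (m - 1)) * f) * (u * w)⁻¹ = e (X ^ (m - 1) * f) := by
      refine hconj _ _ ?_
      have a1 := hφj 1
      simp only [pow_one, mul_one] at a1
      refine Eq.trans ?_ hφ3
      rw [a1, hφj (m - 1)]
    have : h ^ n * e (X * f) * (h ^ n)⁻¹ = e (X ^ (m - 1) * f) := by
      rw [← h5, pow_succ, pow_two]
      calc u * w * (u * w) * (u * w) * e (X * f) * (u * w * (u * w) * (u * w))⁻¹
          = u * w * ((u * w) * ((u * w) * e (X * f) * (u * w)⁻¹) * (u * w)⁻¹) * (u * w)⁻¹ := by group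
        _ = _ := by rw [c1, c2, c3]
    rw [← this, ← eX]
    calc h ^ n * (h * e f * h⁻¹) * (h ^ n)⁻¹ = h * (h ^ n * z * (h ^ n)⁻¹) * h⁻¹ := by rw [hz]; group
      _ = _ := by rw [hz0]
  let g : G → G := fun x => h * x * h⁻¹
  have hg : ∀ (k : ℕ) P, g^[k] (e P) = e (X ^ k * P) := by
    intro k P
    induction k with
    | zero => simp
    | succ k ih => rw [Function.iterate_succ_apply', ih, pow_succ' X k, mul_assoc X, ← eX]
  have hfix : e (X * f) = z := by
    have p1 : Function.IsPeriodicPt g (m - 2) z := by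
      show g^[m - 2] z = z
      have hinj : Function.Injective g := fun x y hxy => mul_left_cancel (mul_right_cancel hxy)
      apply hinj
      show g (g^[m - 2] (e f)) = g (e f)
      rw [hg]
      show h * _ * h⁻¹ = h * _ * h⁻¹
      rw [eX, eX, ← mul_assoc, ← pow_succ', show m - 2 + 1 = m - 1 by omega, hz1]
    have p2 : Function.IsPeriodicPt g N z := by
      show g^[N] (e f) = e f
      rw [hg, hper]
    have := p1.gcd p2
    rw [hcop] at this
    rw [← eX]
    exact this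
  have hz2 : z = 1 := by
    have e1 : ∀ k : ℕ, e (X ^ k * f) = z := by
      intro k
      induction k with
      | zero => simp [hz]
      | succ k ih => rw [pow_succ' X k, mul_assoc X, ← eX, ih, hz, eX, hfix]
    have e2 : e ((X ^ a + X + 1) * f) = 1 := by
      rw [mul_comm]
      exact emul _ f eR
    rw [add_mul, add_mul, one_mul, eadd, eadd, e1, hfix, ← hz, esq, one_mul] at e2
    exact e2
  have hww : w * w = 1 := h3'.trans hz2
  have hhn_u : Commute (h ^ n) u := by
    obtain ⟨r, hr⟩ := hfn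
    have : e (X ^ n) = u := by
      rw [show (X : (ZMod 2)[X]) ^ n = r * f + 1 by rw [mul_comm, ← hr]; ring, eadd,
        emul f r hz2, one_mul, eone]
    have h' := hiter n 1
    rw [mul_one, eone, this] at h'
    exact mul_inv_eq_iff_eq_mul.mp h'
  have hcw : Commute (h ^ n) w := by
    have h' : Commute (h ^ n) (u * w) := by rw [← h5]; exact (Commute.refl _).pow_left 3
    have := (hhn_u.inv_right).mul_right h'
    rwa [inv_mul_cancel_left] at this
  have hc2 : (h ^ n) * (h ^ n) = 1 := by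
    have hwi : w⁻¹ = w := inv_eq_of_mul_eq_one_right hww
    have hui : u⁻¹ = u := inv_eq_of_mul_eq_one_right (by rw [← pow_two]; exact h1)
    have e1 : u * (u * w) ^ 3 * u⁻¹ = ((u * w) ^ 3)⁻¹ := by
      rw [← conj_pow, ← inv_pow, mul_inv_rev, hwi, hui]
      congr 1
      calc u * (u * w) * u = (u * u) * (w * u) := by group
        _ = _ := by rw [← pow_two, h1, one_mul]
    rw [h5, ← hhn_u.eq, mul_inv_cancel_right] at e1
    exact mul_eq_one_iff_eq_inv.mpr e1
  have hcm : (h ^ n) ^ (m - 2) = 1 := by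
    have e1 : w * h ^ n * w⁻¹ = (h ^ n) ^ (m - 1) := by
      rw [← conj_pow, hφ, hz2, mul_one, ← pow_mul, ← pow_mul, mul_comm]
    rw [← hcw.eq, mul_inv_cancel_right] at e1
    rw [show m - 1 = m - 2 + 1 by omega, pow_succ] at e1
    exact (right_eq_mul.mp e1)
  have hn1 : h ^ n = 1 := by
    obtain ⟨k, hk⟩ := hmodd
    rw [show m - 2 = 2 * (k - 1) + 1 by omega, pow_succ, pow_mul, pow_two, hc2, one_pow, one_mul] at hcm
    exact hcm
  refine ⟨⟨e, eadd, eone, eX, emul, hz2⟩, hww, hn1, ?_, h5.trans hn1⟩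
  rw [hφ, hz2, mul_one, eq_inv_iff_mul_eq_one, ← pow_succ, show m - 1 + 1 = m by omega]
  obtain ⟨c, rfl⟩ := hnm
  rw [pow_mul, hn1, one_pow]

end Cfsg.Agent.KnownA.Pres
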