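import Cfsg.Agent.KnownA.RankOne.SLTwo

/-! The standard generators of `SL₂`. -/

set_option autoImplicit false
set_option linter.unusedSectionVars false

namespace Cfsg.Agent.KnownA.Pres

open Matrix Cfsg.Agent.KnownA.RankOne

variable {F : Type*} [Field F]

/-- The Weyl element. -/
def W : SpecialLinearGroup (Fin 2) F := ⟨!![0, 1; -1, 0], by simp [Matrix.det_fin_two]⟩

/-- The torus. -/
def D : Fˣ →* SpecialLinearGroup (Fin 2) F where
  toFun c := ⟨!![(c : F), 0; 0, ((c⁻¹ : Fˣ) : F)], by simp [Matrix.det_fin_two]⟩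
  map_one' := Subtype.ext (by simp [Matrix.one_fin_two])
  map_mul' a b := Subtype.ext (show !![((a * b : Fˣ) : F), 0; 0, (((a * b)⁻¹ : Fˣ) : F)] =
      !![(a : F), 0; 0, ((a⁻¹ : Fˣ) : F)] * !![(b : F), 0; 0, ((b⁻¹ : Fˣ) : F)] by simp [mul_comm])

theorem coe_W : ((W : SpecialLinearGroup (Fin 2) F) : Matrix (Fin 2) (Fin 2) F) = !![0, 1; -1, 0] := rfl

theorem coe_D (c : Fˣ) : ((D c : SpecialLinearGroup (Fin 2) F) : Matrix (Fin 2) (Fin 2) F) = !![(c : F), 0; 0, ((c⁻¹ : Fˣ) : F)] := rfl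

theorem D_conj (c : Fˣ) (t : F) : D c * upT t * (D c)⁻¹ = upT ((c : F) ^ 2 * t) := by
  rw [mul_inv_eq_iff_eq_mul]
  ext i j; fin_cases i <;> fin_cases j <;> simp [Matrix.mul_apply, Fin.sum_univ_two, coe_D, coe_upT] <;> field_simp

theorem W_D (c : Fˣ) : W * D c * W⁻¹ = D c⁻¹ := by
  rw [mul_inv_eq_iff_eq_mul]
  ext i j; fin_cases i <;> fin_cases j <;> simp [Matrix.mul_apply, Fin.sum_univ_two, coe_W, coe_D]

theorem W_sq : (W : SpecialLinearGroup (Fin 2) F) * W = D (-1) := by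
  ext i j; fin_cases i <;> fin_cases j <;> simp [Matrix.mul_apply, Fin.sum_univ_two, coe_W, coe_D]

theorem W_upT_W (t : Fˣ) : W * upT (t : F) * W =
    upT (-((t⁻¹ : Fˣ) : F)) * D (-t⁻¹) * W * upT (-((t⁻¹ : Fˣ) : F)) := by
  ext i j; fin_cases i <;> fin_cases j <;> simp [Matrix.mul_apply, Fin.sum_univ_two, coe_W, coe_D, coe_upT]

theorem W_loT (t : F) : loT t = W * upT (-t) * W⁻¹ := by
  rw [eq_mul_inv_iff_mul_eq]
  ext i j; fin_cases i <;> fin_cases j <;> simp [Matrix.mul_apply, Fin.sum_univ_two, coe_W, coe_upT, coe_loT]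

theorem surjective_of_W {G : Type*} [Group G] (φ : G →* SpecialLinearGroup (Fin 2) F) (hW : W ∈ φ.range)
    (hu : ∀ t, upT t ∈ φ.range) : Function.Surjective φ := by
  refine surjective_of_range φ hu fun t => ?_
  rw [W_loT]
  exact mul_mem (mul_mem hW (hu _)) (inv_mem hW)

theorem closure_gen [Fintype F] (μ : Fˣ) (hμ : ∀ x, x ∈ Subgroup.zpowers μ) :
    (∀ c, D c ∈ Subgroup.zpowers (D μ : SpecialLinearGroup (Fin 2) F)) := fun c => by
  obtain ⟨k, rfl⟩ := hμ c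
  exact ⟨k, (map_zpow D μ k).symm⟩

end Cfsg.Agent.KnownA.Pres
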