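import Mathlib

/-! A square generating a finite field whose successor is a square as well. -/

set_option autoImplicit false
set_option linter.unusedSectionVars false

namespace Cfsg.Agent.KnownA.Pres

open Polynomial

variable {p : ℕ} [Fact p.Prime] {F : Type*} [Field F] [Fintype F] [Algebra (ZMod p) F]

theorem adjoin_sq_generator (hp : p ≠ 2) (μ : Fˣ) (hμ : ∀ x, x ∈ Subgroup.zpowers μ) :
    Algebra.adjoin (ZMod p) {((μ : F)) ^ 2} = ⊤ := by
  classical
  set S := Algebra.adjoin (ZMod p) {((μ : F)) ^ 2}
  set q := Fintype.card F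
  have hp3 : 3 ≤ p := by have := (Fact.out : p.Prime).two_le; omega
  have hord : orderOf μ = q - 1 := by
    rw [orderOf_eq_card_of_forall_mem_zpowers hμ, Nat.card_units, Nat.card_eq_fintype_card]
  have hq : 2 ≤ q := Fintype.one_lt_card
  let g : Option (Fin ((q - 1) / 2)) → S := fun o => o.elim 0 fun i =>
    ⟨((μ : F) ^ 2) ^ (i : ℕ), pow_mem (Algebra.subset_adjoin (Set.mem_singleton _)) _⟩
  have hg : Function.Injective g := by
    rintro (_ | i) (_ | j) h <;> simp only [g, Option.elim] at h
    · rfl
    · exact absurd (congrArg Subtype.val h).symm (pow_ne_zero _ (pow_ne_zero _ μ.ne_zero))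
    · exact absurd (congrArg Subtype.val h) (pow_ne_zero _ (pow_ne_zero _ μ.ne_zero))
    · have h' : μ ^ (2 * (i : ℕ)) = μ ^ (2 * (j : ℕ)) := Units.ext (by
        simpa [← pow_mul] using congrArg Subtype.val h)
      have hi := i.2
      have hj := j.2
      have := pow_injOn_Iio_orderOf (show 2 * (i : ℕ) < orderOf μ by omega) (show 2 * (j : ℕ) < orderOf μ by omega) h'
      exact congrArg some (Fin.ext (by omega))
  have hle := Nat.card_le_card_of_injective g hg
  rw [Nat.card_eq_fintype_card, Fintype.card_option, Fintype.card_fin] at hle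
  by_contra hne
  have hlt : Module.finrank (ZMod p) S < Module.finrank (ZMod p) F := by
    refine Submodule.finrank_lt (s := Subalgebra.toSubmodule S) ?_
    rwa [Ne, Algebra.toSubmodule_eq_top]
  have e1 : Nat.card S = p ^ Module.finrank (ZMod p) S := by
    rw [Module.natCard_eq_pow_finrank (K := ZMod p), Nat.card_zmod]
  have e2 : q = p ^ Module.finrank (ZMod p) F := by
    rw [show q = Nat.card F from Nat.card_eq_fintype_card.symm, Module.natCard_eq_pow_finrank (K := ZMod p),
      Nat.card_zmod]
  have e3 : p * Nat.card S ≤ q := by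
    rw [e1, e2, ← pow_succ']
    exact Nat.pow_le_pow_right (by omega) hlt
  have e4 : 3 * Nat.card S ≤ p * Nat.card S := Nat.mul_le_mul_right _ hp3
  omega

theorem exists_sq_pair (hp : p ≠ 2) (hf : 3 ≤ Module.finrank (ZMod p) F) (μ : Fˣ) (hμ : ∀ x, x ∈ Subgroup.zpowers μ) :
    ∃ i j : ℕ, Algebra.adjoin (ZMod p) {(((μ : F)) ^ 2) ^ i} = ⊤ ∧ ((μ : F) ^ 2) ^ j = 1 + ((μ : F) ^ 2) ^ i := by
  classical
  have hp3 : 3 ≤ p := by have := (Fact.out : p.Prime).two_le; omega
  have h2 : (2 : F) ≠ 0 := by
    have hpF : CharP F p := charP_of_injective_algebraMap (algebraMap (ZMod p) F).injective p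
    exact Ring.two_ne_zero (by rwa [ringChar.eq F p])
  set q := Fintype.card F
  have hord : orderOf μ = q - 1 := by
    rw [orderOf_eq_card_of_forall_mem_zpowers hμ, Nat.card_units, Nat.card_eq_fintype_card]
  set m : F := (μ : F)
  have hm : m ≠ 0 := μ.ne_zero
  set s : F := ((m - m⁻¹) / 2) ^ 2 with hs
  have hgen : Algebra.adjoin (ZMod p) {s} = ⊤ := by
    by_contra hne
    set S := Algebra.adjoin (ZMod p) {s}
    let K : Type _ := S
    have : Module.Finite (ZMod p) S := inferInstance
    let _ : Field S := (Subalgebra.isField_of_algebraic S).toField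
    have htower : Module.finrank (ZMod p) S * Module.finrank S F = Module.finrank (ZMod p) F :=
      Module.finrank_mul_finrank _ _ _
    set d := Module.finrank (ZMod p) S with hd
    have hlt : d < Module.finrank (ZMod p) F := by
      refine Submodule.finrank_lt (s := Subalgebra.toSubmodule S) ?_
      rwa [Ne, Algebra.toSubmodule_eq_top]
    have hdd : 2 * d ≤ Module.finrank (ZMod p) F := by
      rcases (show Module.finrank S F = 0 ∨ Module.finrank S F = 1 ∨ 2 ≤ Module.finrank S F by omega) with h | h | h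
      · rw [h, mul_zero] at htower; omega
      · rw [h, mul_one] at htower; omega
      · rw [← htower, mul_comm 2]; exact Nat.mul_le_mul_left _ h
    have hν : (m ^ 2 + (m⁻¹) ^ 2) ∈ S := by
      have : m ^ 2 + (m⁻¹) ^ 2 = 4 * s + 2 := by
        rw [hs]; field_simp; ring
      rw [this]
      exact add_mem (mul_mem (ofNat_mem S 4) (Algebra.subset_adjoin rfl)) (ofNat_mem S 2)
    let _ : Fintype S := Fintype.ofFinite S
    have hP : Fintype.card S = p ^ d := by
      rw [← Nat.card_eq_fintype_card, Module.natCard_eq_pow_finrank (K := ZMod p), Nat.card_zmod]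
    have hfix : (m ^ 2 + (m⁻¹) ^ 2) ^ (p ^ d) = m ^ 2 + (m⁻¹) ^ 2 := by
      rw [← hP]
      exact congrArg Subtype.val (FiniteField.pow_card (⟨_, hν⟩ : S))
    have hpF : CharP F p := charP_of_injective_algebraMap (algebraMap (ZMod p) F).injective p
    rw [add_pow_char_pow, inv_pow, inv_pow] at hfix
    set T := m ^ 2 with hT
    set TP := T ^ (p ^ d) with hTP
    have hT0 : T ≠ 0 := pow_ne_zero _ hm
    have hTP0 : TP ≠ 0 := pow_ne_zero _ hT0
    have hprod : (TP - T) * (TP * T - 1) = 0 := by
      field_simp at hfix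
      linear_combination hfix
    have hbound : ∀ k : ℕ, 0 < k → m ^ k = 1 → q - 1 ≤ k := fun k hk h => hord ▸ Nat.le_of_dvd hk
      (orderOf_dvd_of_pow_eq_one (Units.ext (by simpa using h)))
    have hPpos : 1 ≤ p ^ d := Nat.one_le_pow _ _ (by omega)
    have hle : q - 1 ≤ 2 * (p ^ d + 1) := by
      rcases mul_eq_zero.mp hprod with h | h
      · by_cases hd0 : p ^ d = 1
        · have hp1 : p ≤ p ^ d := Nat.le_self_pow (by
            intro hd00
            have := Module.finrank_pos (R := ZMod p) (M := S)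
            omega) p
          omega
        · refine le_trans (hbound (2 * (p ^ d - 1)) (by omega) ?_) (by omega)
          refine mul_right_cancel₀ hT0 ?_
          rw [one_mul, pow_mul, ← pow_succ, show p ^ d - 1 + 1 = p ^ d by omega]
          exact sub_eq_zero.mp h
      · refine hbound _ (by omega) ?_
        rw [pow_mul, pow_succ]
        exact sub_eq_zero.mp h
    have e2 : q = p ^ Module.finrank (ZMod p) F := by
      rw [show q = Nat.card F from Nat.card_eq_fintype_card.symm, Module.natCard_eq_pow_finrank (K := ZMod p),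
        Nat.card_zmod]
    have h1 : p ^ d * p ^ d ≤ q := by
      rw [e2, ← pow_add]; exact Nat.pow_le_pow_right (by omega) (by omega)
    have h2' : p ^ 3 ≤ q := by rw [e2]; exact Nat.pow_le_pow_right (by omega) hf
    have h27 : 27 ≤ p ^ 3 := le_trans (by norm_num) (Nat.pow_le_pow_left hp3 3)
    have hP4 : p ^ d ≤ 3 := by
      by_contra h4
      push Not at h4
      have : q ≤ 2 * p ^ d + 3 := by omega
      have := Nat.mul_le_mul_right (p ^ d) h4
      nlinarith
    omega
  have hone : 1 + s = ((m + m⁻¹) / 2) ^ 2 := by rw [hs]; field_simp; ring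
  have hsq : ∀ y : F, y ≠ 0 → ∃ k : ℕ, (m ^ 2) ^ k = y ^ 2 := by
    intro y hy
    obtain ⟨k, hk⟩ := (mem_powers_iff_mem_zpowers).mpr (hμ (Units.mk0 y hy))
    exact ⟨k, by rw [← pow_mul, mul_comm, pow_mul]; congr 1; simpa using congrArg Units.val hk⟩
  have hbot : ∀ a : ZMod p, s ≠ algebraMap (ZMod p) F a := by
    intro a ha
    rw [ha] at hgen
    have : (⊥ : Subalgebra (ZMod p) F) = ⊤ := by
      rw [← hgen]
      exact (le_antisymm (Algebra.adjoin_le (by rintro x rfl; exact algebraMap_mem ⊥ a)) bot_le).symm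
    have := congrArg (fun A : Subalgebra (ZMod p) F => Module.finrank (ZMod p) A) this
    simp only [Subalgebra.finrank_bot, subalgebra_top_finrank_eq_submodule_top_finrank, finrank_top] at this
    omega
  have hs0 : (m - m⁻¹) / 2 ≠ 0 := fun h => hbot 0 (by rw [hs, h, map_zero]; ring)
  have hs1 : (m + m⁻¹) / 2 ≠ 0 := fun h => hbot (-1) (by
    rw [map_neg, map_one]; rw [h] at hone; linear_combination hone)
  obtain ⟨i, hi⟩ := hsq _ hs0
  obtain ⟨j, hj⟩ := hsq _ hs1
  refine ⟨i, j, ?_, ?_⟩
  · rw [hi]; exact hgen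
  · rw [hj, hi, ← hone]

end Cfsg.Agent.KnownA.Pres
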