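import Cfsg.Agent.KnownA.Pres.Orbit
import Cfsg.Agent.KnownA.Pres.SquareGen

/-! At most four relations presenting the orbit of a root element under the torus. -/

set_option autoImplicit false
set_option linter.unusedSectionVars false

namespace Cfsg.Agent.KnownA.Pres

open Polynomial

universe v w

variable {p : ℕ} [Fact p.Prime] {F : Type*} [Field F] [Fintype F] [Algebra (ZMod p) F]

/-- The first generator. -/
noncomputable def gU : FreeGroup (Fin 3) := FreeGroup.of 0

/-- The third generator. -/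
noncomputable def gH : FreeGroup (Fin 3) := FreeGroup.of 2

theorem exists_period_monic {R : (ZMod p)[X]} (hR : R.Monic) (h0 : R.coeff 0 ≠ 0) :
    ∃ N : ℕ, 0 < N ∧ R ∣ X ^ N - 1 := by
  have := hR.finite_adjoinRoot
  have : Finite (AdjoinRoot R) := Module.finite_of_finite (ZMod p)
  have hroot : IsUnit (AdjoinRoot.root R) := by
    have h := (congrArg (AdjoinRoot.mk R) (divX_mul_X_add R)).trans AdjoinRoot.mk_self
    rw [map_add, map_mul, AdjoinRoot.mk_X, AdjoinRoot.mk_C] at h
    refine isUnit_of_mul_isUnit_right (x := AdjoinRoot.mk R R.divX) ?_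
    rw [eq_neg_of_add_eq_zero_left h]
    exact ((isUnit_iff_ne_zero.mpr h0).map (AdjoinRoot.of R)).neg
  obtain ⟨v, hv⟩ := hroot
  refine ⟨orderOf v, orderOf_pos v, AdjoinRoot.mk_eq_mk.mp ?_⟩
  rw [map_pow, map_one, AdjoinRoot.mk_X, ← hv, ← Units.val_pow_eq_pow_val, pow_orderOf_eq_one, Units.val_one]

theorem A_conj_one {G : Type*} [Group G] (h u : G) (i : ℤ) : h * A h u i * h⁻¹ = A h u (1 + i) := by
  simpa using A_shift h u 1 i

/-- The polynomial choice forcing the two trinomial relations down to the minimal polynomial. -/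
theorem exists_correct {l : F} {a b : ℕ} (hb : 0 < b) (hab : b < a) (hpa : p ∣ a) (hpb : ¬ p ∣ b)
    (hl : l ^ a = 1 + l ^ b) (hgen : Algebra.adjoin (ZMod p) {l ^ b} = ⊤) :
    ∃ P A B : (ZMod p)[X], aeval (l ^ b) P = l ∧
      minpoly (ZMod p) l = A * (X ^ a - X ^ b - 1) + B * (X - aeval (X ^ b : (ZMod p)[X]) P) := by
  classical
  set R : (ZMod p)[X] := X ^ a - X ^ b - 1 with hR
  have hint : ∀ y : F, IsIntegral (ZMod p) y := fun y => IsIntegral.of_finite _ _
  set f := minpoly (ZMod p) l with hf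
  set c := minpoly (ZMod p) (l ^ b) with hc
  have hmon : R.Monic := by
    rw [hR, sub_sub, sub_eq_add_neg]
    refine monic_X_pow_add (lt_of_le_of_lt (b := (b : WithBot ℕ)) ?_ (by exact_mod_cast hab))
    rw [degree_neg]
    compute_degree
    all_goals exact le_rfl
  have hR0 : R.coeff 0 ≠ 0 := by
    rw [hR, coeff_sub, coeff_sub, coeff_X_pow, coeff_X_pow, coeff_one_zero, if_neg (by omega), if_neg (by omega)]
    simp
  have hsep : R.Separable := by
    rw [separable_def]
    have hd : derivative R = C (-(b : ZMod p)) * X ^ (b - 1) := by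
      rw [hR, derivative_sub, derivative_sub, derivative_X_pow, derivative_X_pow, derivative_one,
        (CharP.cast_eq_zero_iff (ZMod p) p a).mpr hpa]
      simp
    rw [hd]
    refine (isCoprime_mul_unit_left_right (isUnit_C.mpr (Ne.isUnit ?_)) _ _).mpr ((IsCoprime.pow_right ?_))
    · rw [neg_ne_zero, Ne, CharP.cast_eq_zero_iff (ZMod p) p]
      exact hpb
    · refine ((irreducible_X).coprime_iff_not_dvd.mpr ?_).symm
      rw [X_dvd_iff]
      exact hR0
  obtain ⟨R', hR'⟩ : f ∣ R := minpoly.dvd _ _ (by simp [hR, hl])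
  have hfR' : IsCoprime f R' := by
    have := hsep
    rw [hR'] at this
    exact this.isCoprime
  obtain ⟨N, hN, hNdvd⟩ := exists_period_monic hmon hR0
  have hH0 : (X ^ N - 1 : (ZMod p)[X]) ≠ 0 := by
    intro h
    have := congrArg (fun q => q.coeff 0) h
    simp [coeff_sub, coeff_X_pow, hN.ne'.symm] at this
  have hcirr : Irreducible c := minpoly.irreducible (hint _)
  obtain ⟨k, G, hG, hHG⟩ := WfDvdMonoid.max_power_factor (a₀ := (X ^ N - 1 : (ZMod p)[X])) hH0 hcirr
  obtain ⟨s₁, s₂, hst⟩ := (hcirr.coprime_iff_not_dvd.mpr hG : IsCoprime c G)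
  obtain ⟨P₀, hP₀⟩ : ∃ P₀ : (ZMod p)[X], aeval (l ^ b) P₀ = l := by
    have : l ∈ Algebra.adjoin (ZMod p) ({l ^ b} : Set F) := by rw [hgen]; trivial
    rwa [Algebra.adjoin_singleton_eq_range_aeval] at this
  set P := P₀ * (s₂ * G) with hP
  have hPl : aeval (l ^ b) P = l := by
    have e := congrArg (aeval (l ^ b)) hst
    rw [map_add, map_mul, map_mul, hc, minpoly.aeval, mul_zero, zero_add, map_one, ← map_mul] at e
    rw [hP, map_mul, hP₀, e, mul_one]
  have hcop : IsCoprime R' (X - aeval (X ^ b : (ZMod p)[X]) P) := by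
    have hR'0 : R' ≠ 0 := fun h => hmon.ne_zero (by rw [hR', h, mul_zero])
    refine EuclideanDomain.isCoprime_of_dvd (fun h => hR'0 h.1) fun g hg0 hgne hg1 hg2 => ?_
    obtain ⟨g', hg'i, hg'⟩ := WfDvdMonoid.exists_irreducible_factor (show ¬ IsUnit g from hg0) hgne
    have : Fact (Irreducible g') := ⟨hg'i⟩
    set ρ := AdjoinRoot.root g'
    have hev : ∀ q : (ZMod p)[X], g' ∣ q → aeval ρ q = 0 := fun q hq => by
      rw [AdjoinRoot.aeval_eq, AdjoinRoot.mk_eq_zero]; exact hq
    have e1 : aeval ρ R' = 0 := hev _ (hg'.trans hg1)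
    have e2 : ρ = aeval (ρ ^ b) P := by
      have := hev _ (hg'.trans hg2)
      rwa [map_sub, aeval_X, ← aeval_algHom_apply, map_pow, aeval_X, sub_eq_zero] at this
    by_cases hcy : aeval (ρ ^ b) c = 0
    · have hdvd : c ∣ f.comp P := minpoly.dvd _ _ (by rw [aeval_comp, hPl, hf, minpoly.aeval])
      obtain ⟨r, hr⟩ := hdvd
      have e3 : aeval ρ f = 0 := by
        rw [e2, ← aeval_comp, hr, map_mul, hcy, zero_mul]
      obtain ⟨t₁, t₂, ht⟩ := hfR'
      have := congrArg (aeval ρ) ht
      simp [e1, e3] at this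
    · have hyN : aeval (ρ ^ b) (X ^ N - 1 : (ZMod p)[X]) = 0 := by
        obtain ⟨r, hr⟩ := hNdvd
        have hρN : ρ ^ N = 1 := by
          have e := congrArg (aeval ρ) hr
          rw [map_sub, map_pow, aeval_X, map_one, hR', map_mul, map_mul, e1, mul_zero, zero_mul, sub_eq_zero] at e
          exact e
        rw [map_sub, map_pow, aeval_X, map_one, ← pow_mul, mul_comm, pow_mul, hρN, one_pow, sub_self]
      rw [hHG, map_mul, map_pow, mul_eq_zero] at hyN
      have hG0 : aeval (ρ ^ b) G = 0 := hyN.resolve_left (pow_ne_zero _ hcy)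
      rw [hP, map_mul, map_mul, hG0, mul_zero, mul_zero] at e2
      have e3 : aeval ρ R = 0 := by rw [hR', map_mul, e1, mul_zero]
      rw [hR, e2] at e3
      simp [zero_pow hb.ne', zero_pow (show a ≠ 0 by omega)] at e3
  obtain ⟨t₁, t₂, ht⟩ := hcop
  refine ⟨P, t₁, f * t₂, hPl, ?_⟩
  rw [hR']
  linear_combination (-f) * ht

/-- At most four relations between a root element and a torus element present the root subgroup. -/
theorem exists_orbit_rels (hp : p ≠ 2) (μ : Fˣ) (hμ : ∀ x, x ∈ Subgroup.zpowers μ) :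
    ∃ rs : List (FreeGroup (Fin 3)), rs.length ≤ 4 ∧
      (∀ (G : Type v) [Group G] (φ : FreeGroup (Fin 3) →* G) (x : F → G), (∀ a b, x (a + b) = x a * x b) →
        x 1 = φ gU → (∀ t, φ gH * x t * (φ gH)⁻¹ = x ((μ : F) ^ 2 * t)) → ∀ r ∈ rs, φ r = 1) ∧
      (∀ (G : Type w) [Group G] (φ : FreeGroup (Fin 3) →* G), (∀ r ∈ rs, φ r = 1) →
        ∃ x : F → G, (∀ a b, x (a + b) = x a * x b) ∧ x 1 = φ gU ∧
          (∀ t, φ gH * x t * (φ gH)⁻¹ = x ((μ : F) ^ 2 * t)) ∧
          ∀ P : (ZMod p)[X], word (φ gH) (φ gU) P = x (aeval ((μ : F) ^ 2) P)) := by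
  classical
  have hgen := adjoin_sq_generator (p := p) hp μ hμ
  set l : F := (μ : F) ^ 2 with hl
  have hl0 : l ≠ 0 := pow_ne_zero _ μ.ne_zero
  have hmodel : ∀ (G : Type v) [Group G] (φ : FreeGroup (Fin 3) →* G) (x : F → G), (∀ a b, x (a + b) = x a * x b) →
      x 1 = φ gU → (∀ t, φ gH * x t * (φ gH)⁻¹ = x (l * t)) →
      x 0 = 1 ∧ φ gU ^ p = 1 ∧ (∀ i j : ℕ, φ (A gH gU i) * φ (A gH gU j) = φ (A gH gU j) * φ (A gH gU i)) ∧
        (∀ i : ℕ, φ (A gH gU i) = x (l ^ i)) ∧ ∀ P : (ZMod p)[X], φ (word gH gU P) = x (aeval l P) := by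
    intro G _ φ x hadd hx1 hconj
    have x0 : x 0 = 1 := by
      have := hadd 0 0
      rw [add_zero] at this
      exact left_eq_mul.mp this
    have hA : ∀ i : ℕ, φ (A gH gU i) = x (l ^ i) := by
      intro i
      induction i with
      | zero => simp [A_zero, hx1]
      | succ i ih =>
        rw [show ((i + 1 : ℕ) : ℤ) = 1 + (i : ℤ) by push_cast; ring, ← A_shift, zpow_one, map_mul, map_mul, map_inv,
          ih, hconj, pow_succ']
    have hpow : ∀ (n : ℕ) t, x t ^ n = x (n • t) := by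
      intro n t
      induction n with
      | zero => simp [x0]
      | succ n ih => rw [pow_succ, ih, succ_nsmul, hadd]
    have hpF : CharP F p := charP_of_injective_algebraMap (algebraMap (ZMod p) F).injective p
    refine ⟨x0, ?_, fun i j => by rw [hA, hA, ← hadd, ← hadd, add_comm], hA, fun P => ?_⟩
    · rw [← hx1, hpow, nsmul_eq_mul, CharP.cast_eq_zero, zero_mul, x0]
    · rw [map_word]
      exact word_eq _ _ l x hadd hx1 hconj P
  by_cases hf : Module.finrank (ZMod p) F ≤ 2
  · -- the orbit lies in the span of two elements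
    set f := minpoly (ZMod p) l with hfdef
    refine ⟨[gU ^ p, A gH gU (0 : ℕ) * A gH gU (1 : ℕ) * (A gH gU (1 : ℕ) * A gH gU (0 : ℕ))⁻¹, word gH gU f],
      by simp, fun G _ φ x hadd hx1 hconj => ?_, fun G _ φ hrel => ?_⟩
    · obtain ⟨x0, hp1, hc, -, hw⟩ := hmodel G φ x hadd hx1 hconj
      intro r hr
      simp only [List.mem_cons, List.not_mem_nil, or_false] at hr
      rcases hr with rfl | rfl | rfl
      · rw [map_pow]; exact hp1
      · rw [map_mul, map_inv, mul_inv_eq_one, map_mul, map_mul]; exact hc 0 1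
      · rw [hw, hfdef, minpoly.aeval, x0]
    simp only [List.mem_cons, List.not_mem_nil, or_false, forall_eq_or_imp, forall_eq] at hrel
    obtain ⟨r1, r2, r3⟩ := hrel
    set h := φ gH
    set u := φ gU
    rw [map_pow] at r1
    rw [map_mul, map_inv, mul_inv_eq_one, map_mul, map_mul, map_A, map_A] at r2
    rw [map_word] at r3
    set S := Subgroup.closure ({A h u 0, A h u 1} : Set G)
    have h0S : A h u 0 ∈ S := Subgroup.subset_closure (Or.inl rfl)
    have h1S : A h u 1 ∈ S := Subgroup.subset_closure (Or.inr rfl)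
    have hS : IsMulCommutative S := isMulCommutative_closure (by
      rintro a (rfl | rfl) b (rfl | rfl)
      exacts [Commute.refl _, r2, Eq.symm r2, Commute.refl _])
    have hmon : f.Monic := minpoly.monic (IsIntegral.of_finite _ _)
    have hdeg : f.natDegree = 1 ∨ f.natDegree = 2 := by
      have h1 := minpoly.natDegree_pos (A := ZMod p) (IsIntegral.of_finite (ZMod p) l)
      have h2 : f.natDegree ≤ Module.finrank (ZMod p) F := minpoly.natDegree_le l
      rw [← hfdef] at h1
      omega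
    have h2S : A h u 2 ∈ S := by
      have e1 : f.coeff f.natDegree = 1 := hmon
      have : Fact (1 < p) := ⟨(Fact.out : p.Prime).one_lt⟩
      rcases hdeg with hd | hd <;> rw [hd] at e1
      · rw [word, hd] at r3
        simp [List.range_succ, e1, ZMod.val_one] at r3
        have : A h u 1 = (A h u 0 ^ (f.coeff 0).val)⁻¹ := eq_inv_of_mul_eq_one_right r3
        rw [show (2 : ℤ) = 1 + 1 from rfl, ← A_shift, this, zpow_one, ← MulAut.conj_apply, map_inv, map_pow,
          MulAut.conj_apply]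
        refine inv_mem (pow_mem ?_ _)
        rw [A_conj_one]
        exact h1S
      · rw [word, hd] at r3
        simp [List.range_succ, e1, ZMod.val_one] at r3
        rw [eq_inv_of_mul_eq_one_right (show (A h u 0 ^ (f.coeff 0).val * A h u 1 ^ (f.coeff 1).val) * A h u 2 = 1 by
          simpa [mul_assoc] using r3)]
        exact inv_mem (mul_mem (pow_mem h0S _) (pow_mem h1S _))
    have hstab : S.map (MulAut.conj h).toMonoidHom ≤ S := by
      rw [MonoidHom.map_closure, Subgroup.closure_le]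
      rintro _ ⟨y, rfl | rfl, rfl⟩ <;> simp only [MulEquiv.coe_toMonoidHom, MulAut.conj_apply]
      · rw [A_conj_one]; exact h1S
      · rw [A_conj_one]; exact h2S
    have hall : ∀ i : ℕ, A h u i ∈ S := by
      intro i
      induction i with
      | zero => exact h0S
      | succ i ih =>
        rw [show ((i + 1 : ℕ) : ℤ) = 1 + (i : ℤ) by push_cast; ring, ← A_shift, zpow_one]
        exact hstab ⟨_, ih, rfl⟩
    obtain ⟨e, eadd, eone, eX, eword, emul⟩ := exists_evalHom h u r1 (commute_all h u hS hall)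
    obtain ⟨x, hadd, hx1, hconj, hx⟩ :=
      exists_x h u l hgen e eadd eone eX emul (by rw [eword]; exact r3)
    exact ⟨x, hadd, hx1, hconj, fun P => by rw [← eword, hx]⟩
  push Not at hf
  set q := Fintype.card F with hq
  have hpF : CharP F p := charP_of_injective_algebraMap (algebraMap (ZMod p) F).injective p
  have hq1 : l ^ (q - 1) = 1 := FiniteField.pow_card_sub_one_eq_one l hl0
  obtain ⟨b₀, a₀, hgenb, hab⟩ := exists_sq_pair hp hf μ hμ
  rw [← hl] at hgenb hab
  have hp1 : 1 < p := (Fact.out : p.Prime).one_lt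
  have hpq : p ∣ q := by
    rw [hq, Fintype.card_eq_nat_card, Module.natCard_eq_pow_finrank (K := ZMod p), Nat.card_zmod]
    exact dvd_pow_self p (by omega)
  have hq4 : 4 ≤ q := by
    have : p ^ 3 ≤ q := by
      rw [hq, Fintype.card_eq_nat_card, Module.natCard_eq_pow_finrank (K := ZMod p), Nat.card_zmod]
      exact Nat.pow_le_pow_right (by omega) hf
    have h8 : 2 ^ 3 ≤ p ^ 3 := Nat.pow_le_pow_left hp1 3
    omega
  obtain ⟨b, hb, hlb, hpb⟩ : ∃ b, 0 < b ∧ l ^ b = l ^ b₀ ∧ ¬ p ∣ b := by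
    have e1 : l ^ (b₀ + (q - 1)) = l ^ b₀ := by rw [pow_add, hq1, mul_one]
    by_cases hdiv : p ∣ b₀ + (q - 1)
    · refine ⟨b₀ + (q - 1) + (q - 1), by omega, by rw [pow_add, hq1, mul_one, e1], fun h => ?_⟩
      have h1 : p ∣ q - 1 := (Nat.dvd_add_right hdiv).mp h
      have h2 : p ∣ 1 := by
        have h3 : p ∣ q - 1 + 1 := by rw [show q - 1 + 1 = q by omega]; exact hpq
        exact (Nat.dvd_add_right h1).mp h3
      exact absurd (Nat.le_of_dvd one_pos h2) (by omega)
    · exact ⟨_, by omega, e1, hdiv⟩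
  obtain ⟨a, hab', hla, hpa⟩ : ∃ a, b < a ∧ l ^ a = l ^ a₀ ∧ p ∣ a := by
    refine ⟨q * (a₀ + (q - 1) * (b + 1)), ?_, ?_, hpq.mul_right _⟩
    · have : 1 * (b + 1) ≤ (q - 1) * (b + 1) := Nat.mul_le_mul_right _ (by omega)
      have := Nat.le_mul_of_pos_left (a₀ + (q - 1) * (b + 1)) (show 0 < q by omega)
      omega
    · rw [mul_comm, pow_mul, hq, FiniteField.pow_card, pow_add, pow_mul, ← hq, hq1, one_pow, mul_one]
  have hl' : l ^ a = 1 + l ^ b := by rw [hla, hlb, hab]
  obtain ⟨P, c₁, c₂, hPl, hcomb⟩ := exists_correct hb hab' hpa hpb hl' (by rw [hlb]; exact hgenb)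
  refine ⟨[gU ^ p, A gH gU (0 : ℕ) * A gH gU (b : ℕ) * (A gH gU (b : ℕ) * A gH gU (0 : ℕ))⁻¹,
    A gH gU (a : ℕ) * (A gH gU (0 : ℕ) * A gH gU (b : ℕ))⁻¹,
    A gH gU (1 : ℕ) * (word (gH ^ b) gU P)⁻¹], by simp, fun G _ φ x hadd hx1 hconj => ?_, fun G _ φ hrel => ?_⟩
  · obtain ⟨x0, hp1, hc, hA, -⟩ := hmodel G φ x hadd hx1 hconj
    intro r hr
    simp only [List.mem_cons, List.not_mem_nil, or_false] at hr
    rcases hr with rfl | rfl | rfl | rfl
    · rw [map_pow]; exact hp1
    · rw [map_mul, map_inv, mul_inv_eq_one, map_mul, map_mul]; exact hc 0 b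
    · rw [map_mul, map_inv, mul_inv_eq_one, map_mul, hA, hA, hA, ← hadd, pow_zero, hl']
    · rw [map_mul, map_inv, mul_inv_eq_one, hA, map_word, map_pow]
      have hb' : ∀ t, φ gH ^ b * x t * (φ gH ^ b)⁻¹ = x (l ^ b * t) := by
        clear hPl hcomb hl' hab' hpb hlb hgenb hb
        induction b with
        | zero => intro t; simp
        | succ b ih =>
          intro t
          rw [pow_succ' l, mul_assoc l, ← hconj, ← ih, pow_succ']
          group
      rw [word_eq _ _ (l ^ b) x hadd hx1 hb', hPl, pow_one]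
  simp only [List.mem_cons, List.not_mem_nil, or_false, forall_eq_or_imp, forall_eq] at hrel
  obtain ⟨r1, r2, r3, r4⟩ := hrel
  set h := φ gH
  set u := φ gU
  rw [map_pow] at r1
  rw [map_mul, map_inv, mul_inv_eq_one, map_mul, map_mul, map_A, map_A] at r2
  rw [map_mul, map_inv, mul_inv_eq_one, map_mul, map_A, map_A, map_A] at r3
  rw [map_mul, map_inv, mul_inv_eq_one, map_A, map_word, map_pow] at r4
  have hmult := commute_multiples h u (a := a) (b := b) r2 r3
  have hAb : ∀ i : ℕ, A (h ^ b) u i = A h u ((b : ℤ) * i) := fun i => by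
    simp only [A, ← zpow_natCast h b, ← zpow_mul]
  set S := Subgroup.closure (Set.range fun i : ℕ => A h u ((b : ℤ) * i))
  have hSi : ∀ i : ℕ, A h u ((b : ℤ) * i) ∈ S := fun i => Subgroup.subset_closure ⟨i, rfl⟩
  have hS : IsMulCommutative S := isMulCommutative_closure (by
    rintro _ ⟨i, rfl⟩ _ ⟨j, rfl⟩
    show Commute _ _
    wlog hij : i ≤ j generalizing i j
    · exact (this j i (by omega)).symm
    obtain ⟨k, rfl⟩ := Nat.exists_eq_add_of_le hij
    have := commute_shift h u (hmult k) ((b : ℤ) * i)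
    rwa [add_zero, ← mul_add, ← Nat.cast_add] at this)
  have hbS : S.map (MulAut.conj (h ^ b)).toMonoidHom ≤ S := by
    rw [MonoidHom.map_closure, Subgroup.closure_le]
    rintro _ ⟨_, ⟨i, rfl⟩, rfl⟩
    refine Subgroup.subset_closure ⟨i + 1, ?_⟩
    simp only [MulEquiv.coe_toMonoidHom, MulAut.conj_apply]
    rw [← zpow_natCast h b, A_shift]
    congr 1
    push_cast; ring
  have h1S : A h u 1 ∈ S := by
    rw [← Nat.cast_one, r4, word]
    refine list_prod_mem ?_
    intro y hy
    obtain ⟨i, -, rfl⟩ := List.mem_map.mp hy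
    rw [hAb]
    exact pow_mem (hSi i) _
  have hstep : S.map (MulAut.conj h).toMonoidHom ≤ S := by
    rw [MonoidHom.map_closure, Subgroup.closure_le]
    rintro _ ⟨_, ⟨i, rfl⟩, rfl⟩
    simp only [MulEquiv.coe_toMonoidHom, MulAut.conj_apply]
    rw [A_conj_one]
    induction i with
    | zero => simpa using h1S
    | succ i ih =>
      have := hbS ⟨_, ih, rfl⟩
      simp only [MulEquiv.coe_toMonoidHom, MulAut.conj_apply] at this ⊢
      rw [← zpow_natCast h b, A_shift] at this
      rw [show (1 : ℤ) + (b : ℤ) * ((i + 1 : ℕ) : ℤ) = (b : ℤ) + (1 + (b : ℤ) * (i : ℤ)) by push_cast; ring]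
      exact this
  have hall : ∀ i : ℕ, A h u i ∈ S := by
    intro i
    induction i with
    | zero => simpa using hSi 0
    | succ i ih =>
      rw [show ((i + 1 : ℕ) : ℤ) = 1 + (i : ℤ) by push_cast; ring, ← A_shift, zpow_one]
      exact hstep ⟨_, ih, rfl⟩
  obtain ⟨e, eadd, eone, eX, eword, emul⟩ := exists_evalHom h u r1 (commute_all h u hS hall)
  have ezero : e 0 = 1 := by
    have := eadd 0 0
    rw [add_zero] at this
    exact left_eq_mul.mp this
  have hiter : ∀ (k : ℕ) Q, h ^ k * e Q * (h ^ k)⁻¹ = e (X ^ k * Q) := by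
    intro k Q
    induction k with
    | zero => simp
    | succ k ih =>
      rw [pow_succ' X k, mul_assoc X, ← eX, ← ih, pow_succ']
      group
  have eXi : ∀ i : ℕ, e (X ^ i) = A h u i := fun i => by
    have := hiter i 1
    rw [mul_one, eone] at this
    rw [← this, A, zpow_natCast]
  have esub : ∀ Q Q', e Q = e Q' → e (Q - Q') = 1 := fun Q Q' he => by
    have := eadd (Q - Q') Q'
    rw [sub_add_cancel, he] at this
    exact right_eq_mul.mp this
  have eR : e (X ^ a - X ^ b - 1) = 1 := by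
    rw [sub_sub]
    refine esub _ _ ?_
    rw [eadd, eXi, eXi, eone, r3, r2, Nat.cast_zero, A_zero]
  have eQ : e (X - aeval (X ^ b : (ZMod p)[X]) P) = 1 := by
    refine esub _ _ ?_
    have := eXi 1
    rw [pow_one] at this
    rw [this, r4]
    exact word_eq (h ^ b) u (X ^ b : (ZMod p)[X]) e eadd eone (hiter b) P
  obtain ⟨x, hadd, hx1, hconj, hx⟩ := exists_x h u l hgen e eadd eone eX emul (by
    rw [hcomb, eadd, emul _ c₁ eR, emul _ c₂ eQ, one_mul])
  exact ⟨x, hadd, hx1, hconj, fun Q => by rw [← eword, hx]⟩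

end Cfsg.Agent.KnownA.Pres
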