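import Cfsg.Agent.KnownA.Pres.Bruhat
import Cfsg.Agent.KnownA.Pres.Char2
import Cfsg.Agent.KnownA.Pres.OrbitRels
import Cfsg.Agent.KnownA.Pres.Model
import Cfsg.Agent.Linear.Card

/-! Short presentations of `SL₂` and `PSL₂`. -/

set_option autoImplicit false
set_option linter.unusedSectionVars false

namespace Cfsg.Agent.KnownA.Pres

open Polynomial Cfsg.Agent.KnownA.RankOne

universe u v

/-- The second generator. -/
noncomputable def gW : FreeGroup (Fin 3) := FreeGroup.of 1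

/-- A presented group from a list of relators true in the target. -/
theorem exists_pres {T : Type v} [Group T] (rs : List (FreeGroup (Fin 3))) {k : ℕ} (hk : rs.length ≤ k)
    (Ut Wt Ht : T) (hrs : ∀ r ∈ rs, FreeGroup.lift ![Ut, Wt, Ht] r = 1)
    (hbij : ∀ (G : Type) [Group G] (φ : FreeGroup (Fin 3) →* G) (ψ : G →* T), (∀ r ∈ rs, φ r = 1) →
      Subgroup.closure ({φ gU, φ gW, φ gH} : Set G) = ⊤ → ψ (φ gU) = Ut → ψ (φ gW) = Wt → ψ (φ gH) = Ht →
      Function.Bijective ψ) :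
    ∃ rels : Finset (FreeGroup (Fin 3)), rels.card ≤ k ∧
      Nonempty (PresentedGroup (↑rels : Set (FreeGroup (Fin 3))) ≃* T) := by
  classical
  refine ⟨rs.toFinset, (List.toFinset_card_le rs).trans hk, ?_⟩
  have h : ∀ r ∈ (↑rs.toFinset : Set (FreeGroup (Fin 3))), FreeGroup.lift ![Ut, Wt, Ht] r = 1 := fun r hr =>
    hrs r (List.mem_toFinset.mp (Finset.mem_coe.mp hr))
  refine ⟨MulEquiv.ofBijective (PresentedGroup.toGroup h)
    (hbij _ (PresentedGroup.mk _) _ (fun r hr => PresentedGroup.one_of_mem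
      (Finset.mem_coe.mpr (List.mem_toFinset.mpr hr))) ?_ (PresentedGroup.toGroup.of h) (PresentedGroup.toGroup.of h)
      (PresentedGroup.toGroup.of h))⟩
  rw [eq_top_iff, ← PresentedGroup.closure_range_of, Subgroup.closure_le]
  rintro _ ⟨i, rfl⟩
  refine Subgroup.subset_closure ?_
  fin_cases i
  · exact Or.inl rfl
  · exact Or.inr (Or.inl rfl)
  · exact Or.inr (Or.inr rfl)

theorem psi_x {p : ℕ} [Fact p.Prime] {F : Type u} [Field F] [Fintype F] [Algebra (ZMod p) F] {G : Type*} [Group G]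
    {T : Type v} [Group T] (ψ : G →* T) (l : F) (hgen : Algebra.adjoin (ZMod p) {l} = ⊤) (u h : G) (x : F → G)
    (hx : ∀ P : (ZMod p)[X], word h u P = x (aeval l P)) (y : F → T) (hy : ∀ a b, y (a + b) = y a * y b)
    (hy1 : y 1 = ψ u) (hl : ∀ t, ψ h * y t * (ψ h)⁻¹ = y (l * t)) (t : F) : ψ (x t) = y t := by
  have : t ∈ Algebra.adjoin (ZMod p) ({l} : Set F) := by rw [hgen]; trivial
  rw [Algebra.adjoin_singleton_eq_range_aeval] at this
  obtain ⟨P, rfl⟩ := this
  show ψ (x (aeval l P)) = _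
  rw [← hx, map_word]
  exact word_eq _ _ l y hy hy1 hl P

variable {F : Type u} [Field F] [Fintype F]

theorem surjective_target {G : Type*} [Group G] {T : Type v} [Group T]
    (π : Matrix.SpecialLinearGroup (Fin 2) F →* T) (hπ : Function.Surjective π) (ψ : G →* T) (w : G) (x : F → G)
    (hw : ψ w = π W) (hx : ∀ t, ψ (x t) = π (upT t)) : Function.Surjective ψ := by
  rw [← MonoidHom.range_eq_top, eq_top_iff]
  intro y _
  obtain ⟨g, rfl⟩ := hπ y
  have hmem : (ψ.range.comap π) = ⊤ := by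
    rw [← Subgroup.range_subtype (ψ.range.comap π)]
    exact MonoidHom.range_eq_top.mpr (surjective_of_W _ ⟨⟨W, ⟨w, hw⟩⟩, rfl⟩ fun t => ⟨⟨upT t, ⟨x t, hx t⟩⟩, rfl⟩)
  exact (hmem ▸ Subgroup.mem_top g : g ∈ ψ.range.comap π)

theorem pres_odd {p : ℕ} [Fact p.Prime] [Algebra (ZMod p) F] (hp : p ≠ 2) {T : Type v} [Group T]
    (π : Matrix.SpecialLinearGroup (Fin 2) F →* T) (hπ : Function.Surjective π) (μ : Fˣ)
    (hμ : ∀ x, x ∈ Subgroup.zpowers μ) (N e : ℕ) (hN : 0 < N) (hhN : π (D μ) ^ N = 1)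
    (hw2 : π W * π W = π (D μ) ^ e)
    (hcard : Nat.card T = Fintype.card F * N * (Fintype.card F + 1)) :
    ∃ rels : Finset (FreeGroup (Fin 3)), rels.card ≤ 9 ∧
      Nonempty (PresentedGroup (↑rels : Set (FreeGroup (Fin 3))) ≃* T) := by
  classical
  set l : F := (μ : F) ^ 2 with hl
  have hgen : Algebra.adjoin (ZMod p) {l} = ⊤ := adjoin_sq_generator hp μ hμ
  have hl0 : l ≠ 0 := pow_ne_zero _ μ.ne_zero
  obtain ⟨rs, hlen, hmod, hder⟩ := exists_orbit_rels.{v, 0, u} (p := p) hp μ hμ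
  have hsurj : ∀ t : F, ∃ P : (ZMod p)[X], aeval l P = t := fun t => by
    have : t ∈ Algebra.adjoin (ZMod p) ({l} : Set F) := by rw [hgen]; trivial
    rwa [Algebra.adjoin_singleton_eq_range_aeval] at this
  choose P hP using hsurj
  have hlog : ∀ c : Fˣ, ∃ j : ℕ, μ ^ j = c := fun c => mem_powers_iff_mem_zpowers.mpr (hμ c)
  choose j hj using hlog
  let brel : Fˣ → FreeGroup (Fin 3) := fun s => gW * word gH gU (P (s : F)) * gW *
    (word gH gU (P (-((s⁻¹ : Fˣ) : F))) * gH ^ j (-s⁻¹) * gW * word gH gU (P (-((s⁻¹ : Fˣ) : F))))⁻¹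
  let y : F → T := fun t => π (upT t)
  have hy : ∀ a b, y (a + b) = y a * y b := fun a b => by simp [y, ← map_mul, upT_add]
  have hyl : ∀ t, π (D μ) * y t * (π (D μ))⁻¹ = y (l * t) := fun t => by
    simp only [y]
    rw [← map_inv π, ← map_mul, ← map_mul, D_conj]
  set φ₀ : FreeGroup (Fin 3) →* T := FreeGroup.lift ![y 1, π W, π (D μ)]
  have e0 : φ₀ gU = y 1 := by simp [φ₀, gU]
  have e1 : φ₀ gW = π W := by simp [φ₀, gW]
  have e2 : φ₀ gH = π (D μ) := by simp [φ₀, gH]
  refine exists_pres (rs ++ [gH ^ N, gW * gH * gW⁻¹ * gH, gW * gW * (gH ^ e)⁻¹, brel 1, brel μ])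
    (by simp; omega) (y 1) (π W) (π (D μ)) ?_ ?_
  · intro r hr
    show φ₀ r = 1
    rcases List.mem_append.mp hr with hr | hr
    · exact hmod T φ₀ y hy e0.symm (by rw [e2]; exact hyl) r hr
    have hword : ∀ t, φ₀ (word gH gU (P t)) = y t := fun t => by
      rw [map_word, e0, e2, word_eq _ _ l y hy rfl hyl, hP]
    have hbrel : ∀ s, φ₀ (brel s) = 1 := fun s => by
      simp only [brel, map_mul, map_inv, mul_inv_eq_one, map_pow, hword, e1, e2]
      simp only [y, ← map_pow, ← map_mul, hj, ← W_upT_W]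
    simp only [List.mem_cons, List.not_mem_nil, or_false] at hr
    rcases hr with rfl | rfl | rfl | rfl | rfl
    · rw [map_pow, e2, hhN]
    · rw [map_mul, map_mul, map_mul, map_inv, e1, e2, ← map_inv, ← map_mul, ← map_mul, W_D, ← map_mul, ← map_mul,
        inv_mul_cancel, map_one, map_one]
    · rw [map_mul, map_mul, map_inv, map_pow, e1, e2, hw2, mul_inv_cancel]
    · exact hbrel 1
    · exact hbrel μ
  intro G _ φ ψ hrel hgenG hu hw hh
  obtain ⟨x, hadd, hx1, hconj, hword⟩ := hder G φ fun r hr => hrel r (List.mem_append_left _ hr)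
  simp only [← hl] at hword hconj
  have r1 := hrel (gH ^ N) (by simp)
  have r2 := hrel (gW * gH * gW⁻¹ * gH) (by simp)
  have r3 := hrel (gW * gW * (gH ^ e)⁻¹) (by simp)
  have r4 := hrel (brel 1) (by simp)
  have r5 := hrel (brel μ) (by simp)
  rw [map_pow] at r1
  rw [map_mul, map_mul, map_mul, map_inv, mul_eq_one_iff_eq_inv] at r2
  rw [map_mul, map_inv, mul_inv_eq_one, map_mul, map_pow] at r3
  have hb : ∀ s : Fˣ, φ (brel s) = 1 →
      φ gW * x (s : F) * φ gW = x (-((s⁻¹ : Fˣ) : F)) * φ gH ^ (j (-s⁻¹) : ℤ) * φ gW * x (-((s⁻¹ : Fˣ) : F)) := by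
    intro s h
    simp only [brel, map_mul, map_inv, mul_inv_eq_one, map_pow, map_word, hword, hP] at h
    rw [zpow_natCast]
    exact h
  refine bruhat_bijective x hadd (φ gH) l hl0 hconj ψ ?_ (φ gU) (φ gW) hgenG hx1 hN r1 r2 ⟨e, by rw [zpow_natCast, r3]⟩
    ?_ hcard
  · exact surjective_target π hπ ψ (φ gW) x hw fun t =>
      psi_x ψ l hgen _ _ x hword y hy (by rw [hu]) (by rw [hh]; exact hyl) t
  · intro t ht
    obtain ⟨k, hk⟩ := mem_powers_iff_mem_zpowers.mpr (hμ (Units.mk0 t ht))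
    have hk' : (μ : F) ^ k = t := by simpa using congrArg Units.val hk
    obtain ⟨i, rfl | rfl⟩ := Nat.even_or_odd' k
    · refine ⟨i, 1, _, _, _, ?_, hb 1 r4⟩
      simp [← hk', hl, pow_mul]
    · refine ⟨i, μ, _, _, _, ?_, hb μ r5⟩
      rw [← hk', pow_succ, pow_mul, zpow_natCast]

theorem coprime_of_odd {m N L e : ℕ} (hm : Odd m) (h3 : 3 ≤ m) (hL : L ∣ m) (hLodd : Odd L) (hN : N = 2 ^ e * L) :
    Nat.Coprime (m - 2) N := by
  obtain ⟨k, hk⟩ := hm
  have h2 : Nat.Coprime (m - 2) 2 := by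
    rw [Nat.coprime_two_right, Nat.odd_iff]; omega
  subst hN
  refine Nat.Coprime.mul_right (Nat.Coprime.pow_right _ h2) ?_
  rw [Nat.coprime_iff_gcd_eq_one]
  set g := Nat.gcd (m - 2) L
  have hgm : g ∣ m := (Nat.gcd_dvd_right _ _).trans hL
  have hg2 : g ∣ 2 := by
    have := Nat.dvd_sub hgm (Nat.gcd_dvd_left (m - 2) L)
    rwa [show m - (m - 2) = 2 by omega] at this
  rcases (Nat.dvd_prime Nat.prime_two).mp hg2 with h | h
  · exact h
  · exact absurd (h ▸ Nat.gcd_dvd_right (m - 2) L : 2 ∣ L) (by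
      intro h2L
      obtain ⟨c, hc⟩ := h2L
      obtain ⟨d, hd⟩ := hLodd
      omega)

theorem pres_char_two [CharP F 2] :
    ∃ rels : Finset (FreeGroup (Fin 3)), rels.card ≤ 5 ∧
      Nonempty (PresentedGroup (↑rels : Set (FreeGroup (Fin 3))) ≃* Matrix.SpecialLinearGroup (Fin 2) F) := by
  classical
  let _ : Algebra (ZMod 2) F := ZMod.algebra F 2
  obtain ⟨μ, hμ⟩ := IsCyclic.exists_generator (α := Fˣ)
  set q := Fintype.card F with hq
  obtain ⟨f, -, hqf⟩ := FiniteField.card F 2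
  rw [← hq] at hqf
  have hcard : ∀ N, N = q - 1 → Nat.card (Matrix.SpecialLinearGroup (Fin 2) F) = q * N * (q + 1) := by
    intro N hN
    have h1 : 1 ≤ q := Fintype.card_pos
    rw [Cfsg.Agent.Linear.card_SL_two, ← hq, hN, mul_assoc]
    congr 1
    obtain ⟨r, hr⟩ : ∃ r, q = r + 1 := ⟨q - 1, by omega⟩
    rw [hr, Nat.add_sub_cancel, pow_two]
    have : (r + 1) * (r + 1) = r * (r + 1 + 1) + 1 := by ring
    omega
  let y : F → Matrix.SpecialLinearGroup (Fin 2) F := fun t => upT t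
  have hy : ∀ a b, y (a + b) = y a * y b := fun a b => (upT_add a b).symm
  have hWW : (W : Matrix.SpecialLinearGroup (Fin 2) F) * W = 1 := by
    rw [W_sq, show (-1 : Fˣ) = 1 from Units.ext (CharTwo.neg_eq (1 : F)), map_one]
  have hu2 : y 1 * y 1 = 1 := by
    rw [← hy, CharTwo.add_self_eq_zero]
    ext i j; fin_cases i <;> fin_cases j <;> simp [y]
  have huw : (y 1 * W) ^ 3 = 1 := by
    have h := W_upT_W (F := F) 1
    simp only [Units.val_one, inv_one, CharTwo.neg_eq] at h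
    rw [show (-1 : Fˣ) = 1 from Units.ext (CharTwo.neg_eq (1 : F)), map_one, mul_one] at h
    calc (y 1 * W) ^ 3 = y 1 * (W * y 1 * W) * (y 1 * W) := by simp only [pow_succ, pow_zero, one_mul, mul_assoc]
      _ = y 1 * (y 1 * W * y 1) * (y 1 * W) := by rw [h]
      _ = (y 1 * y 1) * W * (y 1 * y 1) * W := by simp only [mul_assoc]
      _ = 1 := by rw [hu2, one_mul, mul_one, hWW]
  rcases (show q = 2 ∨ 4 ≤ q by
    rcases (show (f : ℕ) = 1 ∨ 2 ≤ (f : ℕ) by have := f.pos; omega) with h | h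
    · left; rw [hqf, h]; rfl
    · right; rw [hqf]; exact le_trans (show 4 ≤ 2 ^ 2 by norm_num) (Nat.pow_le_pow_right two_pos h)) with hq2 | hq4
  · -- two elements
    have hmem : ∀ t : F, t = 0 ∨ t = 1 := by
      intro t
      by_contra hh
      push Not at hh
      have : ({0, 1, t} : Finset F).card ≤ Fintype.card F := Finset.card_le_univ _
      rw [Finset.card_eq_three.mpr ⟨0, 1, t, zero_ne_one, hh.1.symm, hh.2.symm, rfl⟩] at this
      omega
    refine exists_pres [gU * gU, gW * gW, (gU * gW) ^ 3, gH] (by simp) (y 1) W 1 ?_ ?_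
    · intro r hr
      simp only [List.mem_cons, List.not_mem_nil, or_false] at hr
      rcases hr with rfl | rfl | rfl | rfl <;> simp [gU, gW, gH, hWW, hu2, huw]
    intro G _ φ ψ hrel hgenG hu hw hh
    simp only [List.mem_cons, List.not_mem_nil, or_false, forall_eq_or_imp, forall_eq, map_mul, map_pow] at hrel
    obtain ⟨r1, r2, r3, r4⟩ := hrel
    let x : F → G := fun t => if t = 0 then 1 else φ gU
    have hadd : ∀ a b, x (a + b) = x a * x b := fun a b => by
      rcases hmem a with rfl | rfl <;> rcases hmem b with rfl | rfl <;> simp [x, r1, CharTwo.add_self_eq_zero]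
    refine bruhat_bijective x hadd (φ gH) (1 : F) one_ne_zero (fun t => by simp [r4]) ψ ?_ (φ gU) (φ gW) hgenG
      (by simp [x]) (N := 1) one_pos (by simp [r4]) (by simp [r4]) ⟨0, by simp [r2]⟩ ?_ (hcard 1 (by omega))
    · refine surjective_target (MonoidHom.id _) Function.surjective_id ψ (φ gW) x hw fun t => ?_
      rcases hmem t with rfl | rfl
      · ext i j; fin_cases i <;> fin_cases j <;> simp [x]
      · simp [x, hu, y]
    · intro t ht
      refine ⟨0, 1, 1, 1, 0, by simp [(hmem t).resolve_left ht], ?_⟩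
      have hx1 : x 1 = φ gU := by simp [x]
      rw [hx1, zpow_zero, mul_one]
      calc φ gW * φ gU * φ gW = (φ gU * φ gU) * (φ gW * φ gU * φ gW) * (φ gU * φ gW * (φ gW * φ gU)) := by
            rw [r1, one_mul, mul_assoc (φ gU), ← mul_assoc (φ gW) (φ gW), r2, one_mul, r1, mul_one]
        _ = φ gU * ((φ gU * φ gW) ^ 3) * φ gW * φ gU := by simp only [pow_succ, pow_zero, one_mul, mul_assoc]
        _ = _ := by rw [r3, mul_one]
  -- at least four elements
  set l : F := (μ : F) ^ 2 with hl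
  set n := q - 1 with hn
  have hl0 : l ≠ 0 := pow_ne_zero _ μ.ne_zero
  have hμn : μ ^ n = 1 := by
    rw [hn, hq, ← Fintype.card_units, pow_card_eq_one]
  have hq2dvd : Even q := by
    rw [hqf]; exact (Nat.even_pow).mpr ⟨even_two, f.pos.ne'⟩
  obtain ⟨hf2, hf2'⟩ := hq2dvd
  have hlog : ∀ t : F, t ≠ 0 → ∃ i : ℕ, l ^ i = t := fun t ht => by
    obtain ⟨k, hk⟩ := mem_powers_iff_mem_zpowers.mpr (hμ (Units.mk0 t ht))
    refine ⟨k * hf2, ?_⟩
    have hk' : (μ : F) ^ k = t := by simpa using congrArg Units.val hk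
    rw [hl, ← pow_mul, show 2 * (k * hf2) = k * q by rw [hf2']; ring, pow_mul, hk', hq, FiniteField.pow_card]
  have hgen : Algebra.adjoin (ZMod 2) {l} = ⊤ := by
    rw [eq_top_iff]
    intro t _
    by_cases ht : t = 0
    · subst ht; exact zero_mem _
    · obtain ⟨i, rfl⟩ := hlog t ht
      exact pow_mem (Algebra.subset_adjoin (Set.mem_singleton l)) i
  have hl1 : l ≠ 1 := fun h => by
    have h' : μ ^ 2 = 1 := Units.ext (by simpa [hl] using h)
    have := Nat.le_of_dvd two_pos (orderOf_dvd_of_pow_eq_one h')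
    rw [orderOf_eq_card_of_forall_mem_zpowers hμ, Nat.card_units, Nat.card_eq_fintype_card] at this
    omega
  have hln : l ^ n = 1 := by
    rw [hl, ← pow_mul, mul_comm, pow_mul, show (μ : F) ^ n = 1 by simpa using congrArg Units.val hμn, one_pow]
  obtain ⟨a₀, ha₀⟩ := hlog (1 + l) (fun h => hl1 (by
    rw [add_comm] at h; rw [eq_neg_of_add_eq_zero_left h, CharTwo.neg_eq]))
  set a := a₀ + 2 * n with hadef
  have ha : l ^ a = 1 + l := by rw [hadef, pow_add, mul_comm 2 n, pow_mul, hln, one_pow, mul_one, ha₀]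
  obtain ⟨N, hNpos, hN⟩ := exists_period a (by omega)
  obtain ⟨e, L, hL, hNe⟩ := Nat.exists_eq_two_pow_mul_odd hNpos.ne'
  set m := n * L with hm
  have hnodd : Odd n := by rw [Nat.odd_iff]; omega
  have hmodd : Odd m := hnodd.mul hL
  have hm3 : 3 ≤ m := le_trans (show 3 ≤ n by omega) (Nat.le_mul_of_pos_right _ hL.pos)
  set fl := minpoly (ZMod 2) l with hfl
  have hfn : fl ∣ X ^ n - 1 := minpoly.dvd _ _ (by simp [hln])
  have hDn : (D μ : Matrix.SpecialLinearGroup (Fin 2) F) ^ n = 1 := by rw [← map_pow, hμn, map_one]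
  have hyl : ∀ t, D μ * y t * (D μ)⁻¹ = y (l * t) := fun t => D_conj μ t
  set φ₀ : FreeGroup (Fin 3) →* Matrix.SpecialLinearGroup (Fin 2) F := FreeGroup.lift ![y 1, W, D μ]
  have e0 : φ₀ gU = y 1 := by simp [φ₀, gU]
  have e1 : φ₀ gW = W := by simp [φ₀, gW]
  have e2 : φ₀ gH = D μ := by simp [φ₀, gH]
  refine exists_pres [gU * gU, A gH gU (a : ℕ) * (A gH gU (0 : ℕ) * A gH gU (1 : ℕ))⁻¹, gW * gW * (word gH gU fl)⁻¹,
    gW * gH * gW * gH * (gH ^ m)⁻¹, (gU * gW) ^ 3 * (gH ^ n)⁻¹] (by simp) (y 1) W (D μ) ?_ ?_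
  · intro r hr
    show φ₀ r = 1
    have hA : ∀ i : ℕ, A (D μ) (y 1) i = y (l ^ i) := by
      intro i
      induction i with
      | zero => simp [A_zero]
      | succ i ih =>
        rw [show ((i + 1 : ℕ) : ℤ) = 1 + (i : ℤ) by push_cast; ring, ← A_shift, zpow_one, ih, hyl, pow_succ']
    simp only [List.mem_cons, List.not_mem_nil, or_false] at hr
    rcases hr with rfl | rfl | rfl | rfl | rfl
    · rw [map_mul, e0, hu2]
    · rw [map_mul, map_inv, map_mul, map_A, map_A, map_A, e0, e2, hA, hA, hA,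
        ← hy, pow_zero, pow_one, ha, mul_inv_cancel]
    · rw [map_mul, map_inv, map_mul, map_word, e0, e1, e2, word_eq _ _ l y hy rfl hyl, hfl, minpoly.aeval,
        hWW, one_mul, inv_eq_one]
      ext i j; fin_cases i <;> fin_cases j <;> simp [y]
    · rw [map_mul, map_inv, map_pow, map_mul, map_mul, map_mul, e1, e2, hm, pow_mul, hDn, one_pow, inv_one, mul_one]
      have hWi : (W : Matrix.SpecialLinearGroup (Fin 2) F)⁻¹ = W := inv_eq_of_mul_eq_one_right hWW
      have h' := W_D μ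
      rw [hWi] at h'
      rw [h', map_inv, inv_mul_cancel]
    · rw [map_mul, map_inv, map_pow, map_pow, map_mul, e0, e1, e2, hDn, huw, inv_one, mul_one]
  intro G _ φ ψ hrel hgenG hu hw hh
  simp only [List.mem_cons, List.not_mem_nil, or_false, forall_eq_or_imp, forall_eq] at hrel
  obtain ⟨r1, r2, r3, r4, r5⟩ := hrel
  rw [map_mul, ← pow_two] at r1
  rw [map_mul, map_inv, mul_inv_eq_one, map_mul, map_A, map_A, map_A, Nat.cast_zero, Nat.cast_one] at r2
  rw [map_mul, map_inv, mul_inv_eq_one, map_mul, map_word] at r3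
  rw [map_mul, map_inv, mul_inv_eq_one, map_mul, map_mul, map_mul, map_pow] at r4
  rw [map_mul, map_inv, mul_inv_eq_one, map_pow, map_pow, map_mul] at r5
  obtain ⟨⟨ev, eadd, eone, eX, emul, efl⟩, hww, hhn, hwh, huw3⟩ :=
    char_two_derive (φ gU) (φ gW) (φ gH) fl hnodd (dvd_mul_right n L) hm3 hN hfn
      (coprime_of_odd hmodd hm3 (dvd_mul_left L n) hL hNe) hmodd r1 r2 r3 r4 r5
  obtain ⟨x, hadd, hx1, hconj, hxe⟩ := exists_x (φ gH) (φ gU) l hgen ev eadd eone eX emul efl
  have hword : ∀ P : (ZMod 2)[X], word (φ gH) (φ gU) P = x (aeval l P) := fun P =>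
    word_eq _ _ l x hadd hx1 hconj P
  refine bruhat_bijective x hadd (φ gH) l hl0 hconj ψ ?_ (φ gU) (φ gW) hgenG hx1 (N := n) (by omega) hhn hwh
    ⟨0, by rw [hww, zpow_zero]⟩ ?_ (hcard n hn)
  · exact surjective_target (MonoidHom.id _) Function.surjective_id ψ (φ gW) x hw fun t =>
      psi_x ψ l hgen _ _ x hword y hy (by rw [hu]) (by rw [hh]; exact hyl) t
  · intro t ht
    obtain ⟨i, hi⟩ := hlog t ht
    refine ⟨i, 1, 1, 1, 0, by rw [zpow_natCast, hi, mul_one], ?_⟩
    rw [hx1, zpow_zero, mul_one]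
    have hwi : (φ gW)⁻¹ = φ gW := inv_eq_of_mul_eq_one_right hww
    have hui : (φ gU)⁻¹ = φ gU := inv_eq_of_mul_eq_one_right (by rw [← pow_two]; exact r1)
    calc φ gW * φ gU * φ gW
        = (φ gU)⁻¹ * (φ gU * φ gW) ^ 3 * (φ gW)⁻¹ * (φ gU)⁻¹ := by
          simp only [pow_succ, pow_zero, one_mul]; group
      _ = _ := by rw [huw3, mul_one, hwi, hui]

theorem sl_two_pres :
    (∃ rels : Finset (FreeGroup (Fin 3)), rels.card ≤ 9 ∧
      Nonempty (PresentedGroup (↑rels : Set (FreeGroup (Fin 3))) ≃* Matrix.SpecialLinearGroup (Fin 2) F)) ∧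
    (∃ rels : Finset (FreeGroup (Fin 3)), rels.card ≤ 9 ∧
      Nonempty (PresentedGroup (↑rels : Set (FreeGroup (Fin 3))) ≃* Matrix.ProjectiveSpecialLinearGroup (Fin 2) F)) ∧
    (CharP F 2 → ∃ rels : Finset (FreeGroup (Fin 3)), rels.card ≤ 5 ∧
      Nonempty (PresentedGroup (↑rels : Set (FreeGroup (Fin 3))) ≃* Matrix.ProjectiveSpecialLinearGroup (Fin 2) F)) := by
  classical
  obtain ⟨p, hchar⟩ := CharP.exists F
  obtain ⟨f, hpp, hqf⟩ := FiniteField.card F p
  have : Fact p.Prime := ⟨hpp⟩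
  set q := Fintype.card F with hq
  have hq2 : 2 ≤ q := Fintype.one_lt_card
  by_cases hp : p = 2
  · subst hp
    obtain ⟨rels, hr, ⟨E⟩⟩ := pres_char_two (F := F)
    have hbot : Subgroup.center (Matrix.SpecialLinearGroup (Fin 2) F) = ⊥ := by
      rw [← Subgroup.card_eq_one, Cfsg.Agent.Linear.card_center_SL, ← hq]
      have : Even q := by rw [hqf]; exact (Nat.even_pow).mpr ⟨even_two, f.pos.ne'⟩
      obtain ⟨r, hr'⟩ := this
      refine (Nat.prime_two.coprime_iff_not_dvd.mpr ?_)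
      omega
    let E' : PresentedGroup (↑rels : Set (FreeGroup (Fin 3))) ≃* Matrix.ProjectiveSpecialLinearGroup (Fin 2) F :=
      E.trans ((QuotientGroup.quotientBot).symm.trans (QuotientGroup.quotientMulEquivOfEq hbot.symm))
    exact ⟨⟨rels, by omega, ⟨E⟩⟩, ⟨rels, by omega, ⟨E'⟩⟩, fun _ => ⟨rels, hr, ⟨E'⟩⟩⟩
  let _ : Algebra (ZMod p) F := ZMod.algebra F p
  obtain ⟨μ, hμ⟩ := IsCyclic.exists_generator (α := Fˣ)
  have hodd : Odd q := by rw [hqf]; exact (hpp.odd_of_ne_two hp).pow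
  obtain ⟨r, hr⟩ := hodd
  have hμn : μ ^ (q - 1) = 1 := by rw [hq, ← Fintype.card_units, pow_card_eq_one]
  have hμr : μ ^ r = -1 := by
    have hord : orderOf μ = q - 1 := by
      rw [orderOf_eq_card_of_forall_mem_zpowers hμ, Nat.card_units, Nat.card_eq_fintype_card]
    have h2 : (μ ^ r) * (μ ^ r) = 1 := by rw [← pow_add, show r + r = q - 1 by omega, hμn]
    rcases mul_self_eq_one_iff.mp (show ((μ ^ r : Fˣ) : F) * ((μ ^ r : Fˣ) : F) = 1 by rw [← Units.val_mul, h2, Units.val_one]) with h | h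
    · have := Nat.le_of_dvd (by omega) (orderOf_dvd_of_pow_eq_one (Units.ext h : μ ^ r = 1))
      omega
    · exact Units.ext h
  have hsl : Nat.card (Matrix.SpecialLinearGroup (Fin 2) F) = q * (q - 1) * (q + 1) := by
    rw [Cfsg.Agent.Linear.card_SL_two, ← hq, mul_assoc]
    congr 1
    rw [hr, Nat.add_sub_cancel, pow_two]
    have : (2 * r + 1) * (2 * r + 1) = 2 * r * (2 * r + 1 + 1) + 1 := by ring
    omega
  refine ⟨?_, ?_, fun h2 => absurd (CharP.eq F hchar h2) hp⟩
  · refine pres_odd hp (MonoidHom.id _) Function.surjective_id μ hμ (q - 1) r (by omega) ?_ ?_ hsl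
    · simp only [MonoidHom.id_apply, ← map_pow, hμn, map_one]
    · simp only [MonoidHom.id_apply, ← map_pow, hμr, W_sq]
  · have hneg : D (-1 : Fˣ) ∈ Subgroup.center (Matrix.SpecialLinearGroup (Fin 2) F) := by
      rw [Subgroup.mem_center_iff]
      intro g
      ext i j
      fin_cases i <;> fin_cases j <;> simp [coe_D, Matrix.mul_apply, Fin.sum_univ_two]
    have hcard := Cfsg.Agent.Linear.card_PSL_two (F := F)
    rw [← hq, show Nat.gcd 2 (q - 1) = 2 from Nat.gcd_eq_left ⟨r, by omega⟩,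
      ← Cfsg.Agent.Linear.card_SL_two (F := F), hsl] at hcard
    refine pres_odd hp (QuotientGroup.mk' _) (QuotientGroup.mk'_surjective _) μ hμ r 0 (by omega) ?_ ?_ ?_
    · rw [← map_pow, ← map_pow, hμr, QuotientGroup.mk'_apply, QuotientGroup.eq_one_iff]
      exact hneg
    · rw [pow_zero, ← map_mul, W_sq, QuotientGroup.mk'_apply, QuotientGroup.eq_one_iff]
      exact hneg
    · refine Nat.eq_of_mul_eq_mul_left two_pos (hcard.trans ?_)
      rw [show q - 1 = 2 * r by omega, ← hq]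
      ring

end Cfsg.Agent.KnownA.Pres
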