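import Mathlib

/-! Bruhat cell counting for groups of rank one given by three generators. -/

set_option autoImplicit false
set_option linter.unusedSectionVars false

namespace Cfsg.Agent.KnownA.Pres

variable {G : Type*} [Group G] {F : Type*} [Field F] [Fintype F]

/-- The Borel part. -/
def borel (x : F → G) (h : G) : Set G := {g | ∃ (a : F) (k : ℤ), g = x a * h ^ k}

/-- The big cell together with the Borel part. -/
def cells (x : F → G) (w h : G) : Set G :=
  borel x h ∪ {g | ∃ b ∈ borel x h, ∃ c : F, g = b * w * x c}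

variable (x : F → G) (hadd : ∀ a b, x (a + b) = x a * x b) (h : G) (l : F) (hl0 : l ≠ 0)
  (hl : ∀ t, h * x t * h⁻¹ = x (l * t))

include hadd in
theorem x_zero : x 0 = 1 := by
  have := hadd 0 0
  rw [add_zero] at this
  exact left_eq_mul.mp this

include hl0 hl in
theorem x_conj_inv (t : F) : h⁻¹ * x t * h = x (l⁻¹ * t) := by
  have := hl (l⁻¹ * t)
  rw [← mul_assoc, mul_inv_cancel₀ hl0, one_mul] at this
  rw [← this]
  group

include hl0 hl in
theorem x_conj_zpow (k : ℤ) : ∀ t, h ^ k * x t * (h ^ k)⁻¹ = x (l ^ k * t) := by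
  induction k using Int.induction_on with
  | zero => intro t; simp
  | succ k ih =>
    intro t
    rw [zpow_add_one₀ hl0, mul_assoc (l ^ (k : ℤ)) l t, ← ih, ← hl, zpow_add, zpow_one]
    group
  | pred k ih =>
    intro t
    rw [zpow_sub_one₀ hl0, mul_assoc (l ^ (-(k : ℤ))), ← ih, ← x_conj_inv x h l hl0 hl t, zpow_sub, zpow_one]
    group

include hl0 hl in
theorem h_pow_mul_x (k : ℤ) (t : F) : h ^ k * x t = x (l ^ k * t) * h ^ k := by
  rw [← x_conj_zpow x h l hl0 hl k t, inv_mul_cancel_right]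

include hadd hl0 hl in
/-- The group is the union of two cells, hence not larger than the target. -/
theorem bruhat_bijective {T : Type*} [Group T] (ψ : G →* T) (hψ : Function.Surjective ψ) (u w : G)
    (hgen : Subgroup.closure ({u, w, h} : Set G) = ⊤) (hx1 : x 1 = u) {N : ℕ} (hN : 0 < N) (hhN : h ^ N = 1)
    (hwh : w * h * w⁻¹ = h⁻¹) (hw2 : ∃ k : ℤ, w * w = h ^ k)
    (hreps : ∀ t : F, t ≠ 0 → ∃ (i : ℤ) (s a b : F) (k : ℤ), t = l ^ i * s ∧ w * x s * w = x a * h ^ k * w * x b)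
    (hcard : Nat.card T = Fintype.card F * N * (Fintype.card F + 1)) : Function.Bijective ψ := by
  classical
  set B := borel x h
  set S := cells x w h
  have hBmul : ∀ b ∈ B, ∀ b' ∈ B, b * b' ∈ B := by
    rintro _ ⟨a, k, rfl⟩ _ ⟨a', k', rfl⟩
    refine ⟨a + l ^ k * a', k + k', ?_⟩
    rw [hadd, zpow_add, mul_assoc, ← mul_assoc (h ^ k), h_pow_mul_x x h l hl0 hl]
    group
  have hx : ∀ a, x a ∈ B := fun a => ⟨a, 0, by simp⟩
  have hh : ∀ k : ℤ, h ^ k ∈ B := fun k => ⟨0, k, by simp [x_zero x hadd]⟩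
  have hleft : ∀ b ∈ B, ∀ g ∈ S, b * g ∈ S := by
    rintro b hb g (hg | ⟨b', hb', c, rfl⟩)
    · exact Or.inl (hBmul b hb g hg)
    · exact Or.inr ⟨b * b', hBmul b hb b' hb', c, by group⟩
  have hwk : ∀ k : ℤ, w * h ^ k = h ^ (-k) * w := fun k => by
    have : w * h ^ k * w⁻¹ = (h ^ k)⁻¹ := by
      rw [← MulAut.conj_apply, map_zpow, MulAut.conj_apply, hwh, inv_zpow]
    rw [zpow_neg, ← this, inv_mul_cancel_right]
  have hright : ∀ g ∈ S, ∀ k : ℤ, g * h ^ k ∈ S := by
    rintro g (hg | ⟨b, hb, c, rfl⟩) k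
    · exact Or.inl (hBmul g hg _ (hh k))
    · refine Or.inr ⟨b * h ^ (-k), hBmul b hb _ (hh _), l ^ (-k) * c, ?_⟩
      have e := h_pow_mul_x x h l hl0 hl (-k) c
      calc b * w * x c * h ^ k = b * w * h ^ k * (h ^ (-k) * x c) * h ^ k := by rw [zpow_neg]; group
        _ = b * (w * h ^ k) * x (l ^ (-k) * c) * (h ^ (-k) * h ^ k) := by rw [e]; group
        _ = b * h ^ (-k) * w * x (l ^ (-k) * c) := by rw [hwk, ← zpow_add]; simp [mul_assoc]
  have hwxw : ∀ t, w * x t * w ∈ S := by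
    intro t
    by_cases ht : t = 0
    · obtain ⟨k, hk⟩ := hw2
      rw [ht, x_zero x hadd, mul_one, hk]
      exact Or.inl (hh k)
    · obtain ⟨i, s, a, b, k, rfl, e⟩ := hreps t ht
      have e1 : w * x (l ^ i * s) * w = h ^ (-i) * (w * x s * w) * h ^ i := by
        have a1 : h ^ i * x s = x (l ^ i * s) * h ^ i := h_pow_mul_x x h l hl0 hl i s
        calc w * x (l ^ i * s) * w = w * (h ^ i * x s) * (h ^ (-i) * w) := by rw [a1, zpow_neg]; group
          _ = (w * h ^ i) * x s * (w * h ^ i) := by rw [← hwk]; group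
          _ = _ := by rw [hwk]; nth_rewrite 2 [← hwk]; group
      rw [e1]
      refine hright _ (hleft _ (hh _) _ ?_) i
      rw [e]
      exact Or.inr ⟨x a * h ^ k, ⟨a, k, rfl⟩, b, rfl⟩
  have hone : (1 : G) ∈ S := Or.inl ⟨0, 0, by simp [x_zero x hadd]⟩
  have hxr : ∀ g ∈ S, ∀ a, g * x a ∈ S := by
    rintro g (hg | ⟨b, hb, c, rfl⟩) a
    · exact Or.inl (hBmul g hg _ (hx a))
    · exact Or.inr ⟨b, hb, c + a, by rw [hadd, mul_assoc]⟩
  have hwr : ∀ g ∈ S, g * w ∈ S := by
    rintro g (hg | ⟨b, hb, c, rfl⟩)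
    · exact Or.inr ⟨g, hg, 0, by rw [x_zero x hadd, mul_one]⟩
    · rw [mul_assoc b, mul_assoc b]
      exact hleft b hb _ (hwxw c)
  have hmem : ∀ g, g ∈ S := fun g => by
    refine Subgroup.closure_induction_right (p := fun g _ => g ∈ S) hone (fun a _ t ht ha => ?_)
      (fun a _ t ht ha => ?_) (show g ∈ Subgroup.closure ({u, w, h} : Set G) by rw [hgen]; trivial)
    · rcases ht with rfl | rfl | rfl
      · exact hx1 ▸ hxr a ha 1
      · exact hwr a ha
      · simpa using hright a ha 1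
    · rcases ht with rfl | rfl | rfl
      · have : (t : G)⁻¹ = x (-1) := by
          rw [← hx1, inv_eq_iff_mul_eq_one, ← hadd, add_neg_cancel, x_zero x hadd]
        rw [this]
        exact hxr a ha _
      · obtain ⟨k, hk⟩ := hw2
        have : t⁻¹ = t * h ^ (-k) := by rw [zpow_neg, ← hk]; group
        rw [this, ← mul_assoc]
        exact hright _ (hwr a ha) _
      · rw [← zpow_neg_one]
        exact hright a ha _
  -- counting
  let f : F × Fin N × Option F → G := fun p => p.2.2.elim (x p.1 * h ^ (p.2.1 : ℕ))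
    fun c => x p.1 * h ^ (p.2.1 : ℕ) * w * x c
  have hred : ∀ k : ℤ, ∃ i : Fin N, h ^ k = h ^ (i : ℕ) := fun k => by
    refine ⟨⟨(k % N).toNat, ?_⟩, ?_⟩
    · have h1 := Int.emod_lt_of_pos k (show (0 : ℤ) < N by omega)
      have h2 := Int.emod_nonneg k (show (N : ℤ) ≠ 0 by omega)
      omega
    · have h2 := Int.emod_nonneg k (show (N : ℤ) ≠ 0 by omega)
      conv_lhs => rw [← Int.emod_add_mul_ediv k N, zpow_add, zpow_mul, zpow_natCast h N, hhN, one_zpow, mul_one,
        ← Int.toNat_of_nonneg h2, zpow_natCast]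
  have hf : Function.Surjective f := by
    intro g
    rcases hmem g with ⟨a, k, rfl⟩ | ⟨_, ⟨a, k, rfl⟩, c, rfl⟩
    · obtain ⟨i, hi⟩ := hred k
      exact ⟨(a, i, none), by simp [f, hi]⟩
    · obtain ⟨i, hi⟩ := hred k
      exact ⟨(a, i, some c), by simp [f, hi]⟩
  have hle : Nat.card G ≤ Nat.card T := by
    refine (Nat.card_le_card_of_surjective f hf).trans_eq ?_
    rw [hcard, Nat.card_eq_fintype_card, Fintype.card_prod, Fintype.card_prod, Fintype.card_fin, Fintype.card_option,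
      mul_assoc]
  have : Finite G := Finite.of_surjective f hf
  exact hψ.bijective_of_nat_card_le hle

end Cfsg.Agent.KnownA.Pres
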