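import Mathlib

/-! The orbit of a generator under conjugation, as a cyclic module. -/

set_option autoImplicit false
set_option linter.unusedSectionVars false
set_option linter.style.haveILetI false

namespace Cfsg.Agent.KnownA.Pres

open Polynomial

variable {G : Type*} [Group G] (h u : G)

/-- The conjugates of `u` by the powers of `h`. -/
def A (i : ℤ) : G := h ^ i * u * (h ^ i)⁻¹

theorem A_zero : A h u 0 = u := by simp [A]

theorem A_one : A h u 1 = h * u * h⁻¹ := by simp [A]

theorem A_shift (j i : ℤ) : h ^ j * A h u i * (h ^ j)⁻¹ = A h u (j + i) := by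
  simp [A, zpow_add, mul_assoc]

theorem commute_shift {i j : ℤ} (hc : Commute (A h u i) (A h u j)) (k : ℤ) :
    Commute (A h u (k + i)) (A h u (k + j)) := by
  rw [← A_shift, ← A_shift, ← MulAut.conj_apply, ← MulAut.conj_apply]
  exact hc.map _

theorem commute_multiples {a b : ℤ} (hb : Commute (A h u 0) (A h u b))
    (ha : A h u a = A h u 0 * A h u b) : ∀ m : ℕ, Commute (A h u 0) (A h u (b * m)) := by
  intro m
  induction m using Nat.strong_induction_on with
  | _ m ih =>
    match m with
    | 0 => simp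
    | 1 => simpa using hb
    | k + 2 =>
      have h1 : Commute (A h u 0) (A h u (b * (k + 1))) := by simpa using ih (k + 1) (by omega)
      have e1 : A h u (a + b * (k + 1)) = A h u (b * (k + 1)) * A h u (b * (k + 2)) := by
        have e := congrArg (fun x => h ^ (b * ((k : ℤ) + 1)) * x * (h ^ (b * ((k : ℤ) + 1)))⁻¹) ha
        simp only [← MulAut.conj_apply, map_mul] at e
        simp only [MulAut.conj_apply, A_shift, add_zero] at e
        rw [add_comm, e]
        congr 2
        ring
      have h2 : Commute (A h u a) (A h u (a + b * (k + 1))) := by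
        simpa using commute_shift h u h1 a
      rw [ha, e1] at h2
      have h3 : Commute (A h u b) (A h u (b * (k + 1))) := by
        have h0 : Commute (A h u 0) (A h u (b * k)) := by simpa using ih k (by omega)
        have := commute_shift h u h0 b
        rwa [add_zero, show b + b * (k : ℤ) = b * (k + 1) by ring] at this
      have h4 : Commute (A h u b) (A h u (b * (k + 2))) := by
        have := commute_shift h u h1 b
        rwa [add_zero, show b + b * ((k : ℤ) + 1) = b * (k + 2) by ring] at this
      have h5 : Commute (A h u 0 * A h u b) (A h u (b * (k + 2))) := by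
        have hh : Commute (A h u 0 * A h u b) (A h u (b * (k + 1))) := h1.mul_left h3
        have := (Commute.inv_right hh).mul_right h2
        rwa [inv_mul_cancel_left] at this
      have h6 : Commute (A h u 0) (A h u (b * (k + 2))) := by
        have := h5.mul_left h4.inv_left
        rwa [mul_inv_cancel_right] at this
      simpa using h6

/-- If the nonnegative orbit lies in a set of commuting elements then all commute. -/
theorem commute_all {S : Subgroup G} (hS : IsMulCommutative S) (hA : ∀ i : ℕ, A h u i ∈ S) (i j : ℤ) :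
    Commute (A h u i) (A h u j) := by
  obtain ⟨n, hn⟩ : ∃ n : ℕ, (n : ℤ) = i.natAbs + j.natAbs := ⟨i.natAbs + j.natAbs, by simp⟩
  obtain ⟨a, ha⟩ := Int.eq_ofNat_of_zero_le (show 0 ≤ (n : ℤ) + i by omega)
  obtain ⟨b, hb⟩ := Int.eq_ofNat_of_zero_le (show 0 ≤ (n : ℤ) + j by omega)
  have hc : Commute (A h u a) (A h u b) :=
    congrArg Subtype.val (hS.is_comm.comm (⟨_, hA a⟩ : S) ⟨_, hA b⟩)
  have := commute_shift h u hc (-(n : ℤ))
  rwa [← ha, ← hb, neg_add_cancel_left, neg_add_cancel_left] at this

theorem isMulCommutative_closure {T : Set G} (hT : ∀ x ∈ T, ∀ y ∈ T, Commute x y) :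
    IsMulCommutative (Subgroup.closure T) :=
  Subgroup.isMulCommutative_closure fun x hx y hy => hT x hx y hy

/-- The product with the coefficients as exponents. -/
noncomputable def word {p : ℕ} (P : (ZMod p)[X]) : G :=
  ((List.range (P.natDegree + 1)).map fun i => A h u (i : ℕ) ^ (P.coeff i).val).prod

theorem map_word {H : Type*} [Group H] (f : G →* H) {p : ℕ} (P : (ZMod p)[X]) :
    f (word h u P) = word (f h) (f u) P := by
  simp [word, map_list_prod, List.map_map, Function.comp_def, A, map_pow, map_mul, map_inv]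

theorem map_A {H : Type*} [Group H] (f : G →* H) (i : ℤ) : f (A h u i) = A (f h) (f u) i := by
  simp [A]

/-- The evaluation in a commutative group of prime exponent with an endomorphism. -/
theorem exists_eval_core {p : ℕ} [Fact p.Prime] {M : Type*} [AddCommGroup M] [Module (ZMod p) M]
    (T : Module.End (ZMod p) M) (m : M) :
    ∃ e : (ZMod p)[X] → M, (∀ P Q, e (P + Q) = e P + e Q) ∧ e 1 = m ∧ (∀ P, T (e P) = e (X * P)) ∧
      (∀ P, e P = ((List.range (P.natDegree + 1)).map fun i => (P.coeff i).val • e (X ^ i)).sum) ∧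
      (∀ P R : (ZMod p)[X], e P = 0 → e (R * P) = 0) := by
  refine ⟨fun P => aeval T P m, fun P Q => by simp, by simp, fun P => ?_, fun P => ?_, fun P R hP => ?_⟩
  · show _ = aeval T (X * P) m
    rw [map_mul, aeval_X, Module.End.mul_apply]
  · show aeval T P m = _
    rw [aeval_eq_sum_range, LinearMap.sum_apply, Finset.sum_eq_multiset_sum, Finset.range_val, Multiset.range,
      Multiset.map_coe, Multiset.sum_coe]
    congr 1
    refine List.map_congr_left fun i _ => ?_
    beta_reduce
    rw [LinearMap.smul_apply, map_pow, aeval_X]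
    conv_lhs => rw [← ZMod.natCast_zmod_val (P.coeff i), Nat.cast_smul_eq_nsmul]
  · show aeval T (R * P) m = 0
    rw [map_mul, Module.End.mul_apply, show aeval T P m = 0 from hP, map_zero]

/-- The evaluation in a module generated by commuting conjugates. -/
theorem exists_evalHom {p : ℕ} [Fact p.Prime] (hp : u ^ p = 1) (hc : ∀ i j, Commute (A h u i) (A h u j)) :
    ∃ e : (ZMod p)[X] → G, (∀ P Q, e (P + Q) = e P * e Q) ∧ e 1 = u ∧ (∀ P, h * e P * h⁻¹ = e (X * P)) ∧
      (∀ P, e P = word h u P) ∧ (∀ P R : (ZMod p)[X], e P = 1 → e (R * P) = 1) := by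
  classical
  set U : Subgroup G := Subgroup.closure (Set.range (A h u)) with hUdef
  have hU : IsMulCommutative U := isMulCommutative_closure (by rintro _ ⟨i, rfl⟩ _ ⟨j, rfl⟩; exact hc i j)
  let iU : AddCommGroup (Additive U) :=
    { (inferInstance : AddGroup (Additive U)) with add_comm := fun a b => hU.is_comm.comm a.toMul b.toMul }
  have hexp : ∀ x : U, x ^ p = 1 := by
    rintro ⟨x, hx⟩
    refine Subtype.ext ?_
    show x ^ p = 1
    have hx' : (x ∈ U) ∧ x ^ p = 1 := by
      induction hx using Subgroup.closure_induction with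
      | mem y hy =>
        obtain ⟨i, rfl⟩ := hy
        exact ⟨Subgroup.subset_closure ⟨i, rfl⟩, by rw [A, conj_pow, hp, mul_one, mul_inv_cancel]⟩
      | one => exact ⟨one_mem _, one_pow p⟩
      | mul a b _ _ ha hb =>
        have hab : Commute a b := congrArg Subtype.val (hU.is_comm.comm (⟨a, ha.1⟩ : U) ⟨b, hb.1⟩)
        exact ⟨mul_mem ha.1 hb.1, by rw [hab.mul_pow, ha.2, hb.2, mul_one]⟩
      | inv a _ ha => exact ⟨inv_mem ha.1, by rw [inv_pow, ha.2, inv_one]⟩
    exact hx'.2
  let iM : Module (ZMod p) (Additive U) := AddCommGroup.zmodModule (fun x => hexp x.toMul)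
  have hTU : ∀ x ∈ U, h * x * h⁻¹ ∈ U := by
    intro x hx
    have : U.map (MulAut.conj h).toMonoidHom ≤ U := by
      rw [hUdef, MonoidHom.map_closure, Subgroup.closure_le]
      rintro _ ⟨_, ⟨i, rfl⟩, rfl⟩
      exact Subgroup.subset_closure ⟨1 + i, by rw [← A_shift, zpow_one]; rfl⟩
    exact this ⟨x, hx, rfl⟩
  let c : U →* U :=
    { toFun := fun x => ⟨h * x * h⁻¹, hTU x x.2⟩
      map_one' := Subtype.ext (by simp)
      map_mul' := fun x y => Subtype.ext (by simp [mul_assoc]) }
  let T : Module.End (ZMod p) (Additive U) :=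
    { (MonoidHom.toAdditive c) with map_smul' := fun r x => ZMod.map_smul (MonoidHom.toAdditive c) r x }
  have h0 : u ∈ U := Subgroup.subset_closure ⟨0, A_zero h u⟩
  obtain ⟨e, e1, e2, e3, e4, e5⟩ := exists_eval_core T (Additive.ofMul ⟨u, h0⟩)
  have hT : ∀ i : ℕ, (e (X ^ i)).toMul.1 = A h u i := by
    intro i
    induction i with
    | zero => rw [pow_zero, e2]; exact (A_zero h u).symm
    | succ i ih =>
      rw [pow_succ', ← e3]
      show h * (e (X ^ i)).toMul.1 * h⁻¹ = _
      rw [ih, show ((i + 1 : ℕ) : ℤ) = 1 + (i : ℤ) by push_cast; ring, ← A_shift, zpow_one]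
  refine ⟨fun P => (e P).toMul.1, fun P Q => ?_, ?_, fun P => ?_, fun P => ?_, fun P R hP => ?_⟩
  · show (e (P + Q)).toMul.1 = _
    rw [e1]; rfl
  · show (e 1).toMul.1 = _
    rw [e2]; rfl
  · show _ = (e (X * P)).toMul.1
    rw [← e3]; rfl
  · show (e P).toMul.1 = _
    rw [e4, word]
    generalize List.range (P.natDegree + 1) = L
    induction L with
    | nil => rfl
    | cons a L ih =>
      rw [List.map_cons, List.map_cons, List.sum_cons, List.prod_cons, ← ih, toMul_add, Subgroup.coe_mul,
        toMul_nsmul, SubgroupClass.coe_pow, hT]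
  · show (e (R * P)).toMul.1 = 1
    rw [e5 P R (Additive.toMul.injective (Subtype.ext hP))]
    rfl

theorem exists_x {p : ℕ} [Fact p.Prime] {F : Type*} [Field F] [Finite F] [Algebra (ZMod p) F] (l : F)
    (hlgen : Algebra.adjoin (ZMod p) {l} = ⊤) (e : (ZMod p)[X] → G) (hadd : ∀ P Q, e (P + Q) = e P * e Q)
    (h1 : e 1 = u) (hX : ∀ P, h * e P * h⁻¹ = e (X * P)) (hmul : ∀ P R : (ZMod p)[X], e P = 1 → e (R * P) = 1)
    (hmin : e (minpoly (ZMod p) l) = 1) :
    ∃ x : F → G, (∀ a b, x (a + b) = x a * x b) ∧ x 1 = u ∧ (∀ t, h * x t * h⁻¹ = x (l * t)) ∧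
      ∀ P, e P = x (aeval l P) := by
  have hint : IsIntegral (ZMod p) l := IsIntegral.of_finite _ _
  have hcong : ∀ P Q, aeval l P = aeval l Q → e P = e Q := by
    intro P Q he
    obtain ⟨R, hR⟩ := minpoly.dvd (ZMod p) l (show aeval l (P - Q) = 0 by rw [map_sub, he, sub_self])
    rw [show P = R * minpoly (ZMod p) l + Q by rw [mul_comm, ← hR]; ring, hadd, hmul _ _ hmin, one_mul]
  have hsurj : Function.Surjective (aeval l : (ZMod p)[X] → F) := by
    intro t
    have : t ∈ Algebra.adjoin (ZMod p) ({l} : Set F) := by rw [hlgen]; trivial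
    rwa [Algebra.adjoin_singleton_eq_range_aeval] at this
  let x : F → G := fun t => e (Function.surjInv hsurj t)
  have hx : ∀ P, x (aeval l P) = e P := fun P => hcong _ _ (Function.surjInv_eq hsurj _)
  refine ⟨x, fun a b => ?_, ?_, fun t => ?_, fun P => (hx P).symm⟩
  · obtain ⟨P, rfl⟩ := hsurj a
    obtain ⟨Q, rfl⟩ := hsurj b
    rw [← map_add, hx, hx, hx, hadd]
  · rw [← map_one (aeval l : (ZMod p)[X] →ₐ[ZMod p] F), hx, h1]
  · obtain ⟨P, rfl⟩ := hsurj t
    rw [hx, hX, ← hx (X * P), map_mul, aeval_X]

/-- In a model the word is the value of the homomorphism. -/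
theorem word_eq {p : ℕ} [Fact p.Prime] {F : Type*} [CommRing F] [Algebra (ZMod p) F] (l : F) (x : F → G)
    (hadd : ∀ a b, x (a + b) = x a * x b) (h1 : x 1 = u) (hl : ∀ t, h * x t * h⁻¹ = x (l * t))
    (P : (ZMod p)[X]) : word h u P = x (aeval l P) := by
  have x0 : x 0 = 1 := by
    have := hadd 0 0
    rw [add_zero] at this
    exact left_eq_mul.mp this
  have hA : ∀ i : ℕ, A h u i = x (l ^ i) := by
    intro i
    induction i with
    | zero => simp [A_zero, h1]
    | succ i ih =>
      rw [show ((i + 1 : ℕ) : ℤ) = 1 + (i : ℤ) by push_cast; ring, ← A_shift, zpow_one, ih, hl, pow_succ']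
  have hpow : ∀ (n : ℕ) t, x t ^ n = x (n • t) := by
    intro n t
    induction n with
    | zero => simp [x0]
    | succ n ih => rw [pow_succ, ih, succ_nsmul, hadd]
  have hsum : ∀ (L : List ℕ) (f : ℕ → F), (L.map fun i => x (f i)).prod = x ((L.map f).sum) := by
    intro L f
    induction L with
    | nil => simp [x0]
    | cons a L ih => simp [hadd, ih]
  rw [word, aeval_eq_sum_range, Finset.sum_eq_multiset_sum, Finset.range_val, Multiset.range, Multiset.map_coe,
    Multiset.sum_coe, ← hsum]
  congr 1
  refine List.map_congr_left fun i _ => ?_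
  rw [hA, hpow]
  conv_rhs => rw [← ZMod.natCast_zmod_val (P.coeff i), Nat.cast_smul_eq_nsmul]

end Cfsg.Agent.KnownA.Pres
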